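import Cfsg.Agent.Lib.Helper90.Syl2.Defs

set_option autoImplicit false

namespace Cfsg.Agent.Lib.Helper90.Syl2

/-- a 2-subgroup of odd index has order `2 ^ v2 (card)`. -/
theorem A6_card_of_odd {A : Type*} [Group A] [Finite A] (X : Subgroup A) (hX : IsPGroup 2 X)
    (hXo : Odd X.index) : Nat.card X = 2 ^ padicValNat 2 (Nat.card A) := by
  obtain ⟨n, hn⟩ := IsPGroup.iff_card.1 hX
  have h1 : Nat.card A = Nat.card X * X.index := (Subgroup.card_mul_index X).symm
  have h2 : padicValNat 2 (Nat.card A) = n := by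
    rw [h1, hn, padicValNat.mul (by positivity) (Subgroup.index_ne_zero_of_finite),
      padicValNat.prime_pow, padicValNat.eq_zero_of_not_dvd (by
        intro h; exact (Nat.not_even_iff_odd.2 hXo) (even_iff_two_dvd.2 h)), add_zero]
  rw [h2, hn]

/-- a subgroup of order `2 ^ v2 (card)` has odd index. -/
theorem A6_odd_of_card {G : Type*} [Group G] [Finite G] (P : Subgroup G)
    (hP : Nat.card P = 2 ^ padicValNat 2 (Nat.card G)) : Odd P.index := by
  rw [← Nat.not_even_iff_odd, even_iff_two_dvd]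
  intro h
  have h1 : Nat.card G = Nat.card P * P.index := (Subgroup.card_mul_index P).symm
  have h2 : 2 ^ (padicValNat 2 (Nat.card G) + 1) ∣ Nat.card G := by
    rw [pow_succ]
    conv_rhs => rw [h1, hP]
    exact Nat.mul_dvd_mul_left _ h
  exact pow_succ_padicValNat_not_dvd (p := 2) Nat.card_pos.ne' h2

/-- A6. -/
theorem pack_prod {A B G : Type*} [Group A] [Group B] [Group G] [Finite G] (j : A × B →* G)
    (hj : Function.Injective j)
    (hk : padicValNat 2 (Nat.card G) = padicValNat 2 (Nat.card A) + padicValNat 2 (Nat.card B))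
    (X : Subgroup A) (Y : Subgroup B) (hX : IsPGroup 2 X) (hY : IsPGroup 2 Y)
    (hXo : Odd X.index) (hYo : Odd Y.index) :
    IsPGroup 2 ((X.prod Y).map j) ∧ Odd ((X.prod Y).map j).index ∧
      (X.prod Y).map j = X.map (j.comp (MonoidHom.inl A B)) ⊔ Y.map (j.comp (MonoidHom.inr A B)) := by
  haveI : Finite (A × B) := Finite.of_injective j hj
  haveI : Finite A := Finite.of_injective (fun a : A => ((a, 1) : A × B))
    (fun a b h => (Prod.mk.inj h).1)
  haveI : Finite B := Finite.of_injective (fun b : B => ((1, b) : A × B))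
    (fun a b h => (Prod.mk.inj h).2)
  have hc : Nat.card ((X.prod Y).map j) = 2 ^ padicValNat 2 (Nat.card G) := by
    rw [Subgroup.card_map_of_injective hj, Nat.card_congr (Subgroup.prodEquiv X Y).toEquiv,
      Nat.card_prod, A6_card_of_odd X hX hXo, A6_card_of_odd Y hY hYo, hk, pow_add]
  refine ⟨IsPGroup.of_card hc, A6_odd_of_card _ hc, ?_⟩
  apply le_antisymm
  · rintro _ ⟨⟨x, y⟩, ⟨hx, hy⟩, rfl⟩
    have e : j (x, y) = j (x, 1) * j (1, y) := by rw [← map_mul]; simp
    rw [e]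
    exact Subgroup.mul_mem_sup ⟨x, hx, rfl⟩ ⟨y, hy, rfl⟩
  · rw [sup_le_iff]
    constructor
    · rintro _ ⟨x, hx, rfl⟩
      exact ⟨(x, 1), ⟨hx, Y.one_mem⟩, rfl⟩
    · rintro _ ⟨y, hy, rfl⟩
      exact ⟨(1, y), ⟨X.one_mem, hy⟩, rfl⟩

end Cfsg.Agent.Lib.Helper90.Syl2
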