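import Cfsg.Agent.Lib.Helper90.Syl2.Defs

set_option autoImplicit false

namespace Cfsg.Agent.Lib.Helper90.Syl2

/-- A8. -/
theorem SqIn.map {G H : Type*} [Group G] [Group H] (f : G →* H) {R : Subgroup G} (h : SqIn R) :
    SqIn (R.map f) := by
  rintro _ ⟨r, hr, rfl⟩
  rw [← Subgroup.map_commutator, ← map_pow]
  exact Subgroup.mem_map_of_mem f (h r hr)

theorem A8_map_commutator {G H : Type*} [Group G] [Group H] (e : G ≃* H) :
    (commutator G).map (e : G →* H) = commutator H := by
  rw [commutator_def, commutator_def, Subgroup.map_commutator,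
    Subgroup.map_top_of_surjective (e : G →* H) e.surjective]

theorem Nice.of_equiv {G H : Type*} [Group G] [Group H] (e : G ≃* H) (h : Nice G) : Nice H := by
  obtain ⟨X, h1, h2, h3⟩ := h
  exact ⟨X.map (e : G →* H), h1.map _, by rw [Subgroup.index_map_equiv]; exact h2, h3.map _⟩

theorem NiceC.of_equiv {G H : Type*} [Group G] [Group H] (e : G ≃* H) (h : NiceC G) :
    NiceC H := by
  obtain ⟨X, h1, h2, h3, h4⟩ := h
  refine ⟨X.map (e : G →* H), h1.map _, by rw [Subgroup.index_map_equiv]; exact h2, h3.map _, ?_⟩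
  rintro _ ⟨x, hx, rfl⟩ _ ⟨x', hx', rfl⟩
  obtain ⟨a, ha, a', ha', hc, e1, e2⟩ := h4 x hx x' hx'
  refine ⟨e a, ⟨a, ha, rfl⟩, e a', ⟨a', ha', rfl⟩, hc.map (e : G →* H), ?_, ?_⟩
  · rw [← A8_map_commutator e]
    exact ⟨x * a, e1, by simp⟩
  · rw [← A8_map_commutator e]
    exact ⟨x' * a', e2, by simp⟩

theorem A8_sq_iff {K : Type*} [Group K] (R : Subgroup K) :
    (∀ x : R, x ^ 2 ∈ commutator R) ↔ SqIn R := by
  constructor
  · intro h r hr
    rw [← Subgroup.map_subtype_commutator]
    exact ⟨_, h ⟨r, hr⟩, rfl⟩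
  · intro h x
    have := h x x.2
    rw [← Subgroup.map_subtype_commutator] at this
    obtain ⟨z, hz, e⟩ := this
    have : z = x ^ 2 := Subtype.ext e
    exact this ▸ hz

theorem Target.of_equiv {G H : Type*} [Group G] [Group H] (e : G ≃* H) (h : Target G) :
    Target H := by
  intro P
  rw [A8_sq_iff]
  let e' : commutator G ≃* commutator H :=
    (e.subgroupMap (commutator G)).trans (MulEquiv.subgroupCongr (A8_map_commutator e))
  have hr : (P : Subgroup (commutator H)) ≤ (e' : commutator G →* commutator H).range := by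
    intro x _
    exact ⟨e'.symm x, by simp⟩
  let P₀ : Sylow 2 (commutator G) :=
    P.comapOfInjective (e' : commutator G →* commutator H) e'.injective hr
  have h0 : SqIn (P₀ : Subgroup (commutator G)) := (A8_sq_iff _).1 (h P₀)
  have h1 := h0.map (e' : commutator G →* commutator H)
  have h2 : (P₀ : Subgroup (commutator G)).map (e' : commutator G →* commutator H) = P := by
    change ((P : Subgroup (commutator H)).comap (e' : commutator G →* commutator H)).map
      (e' : commutator G →* commutator H) = P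
    exact Subgroup.map_comap_eq_self_of_surjective (f := (e' : commutator G →* commutator H))
      e'.surjective _
  rw [h2] at h1
  exact h1

theorem NiceC.nice {G : Type*} [Group G] (h : NiceC G) : Nice G := by
  obtain ⟨X, h1, h2, h3, -⟩ := h
  exact ⟨X, h1, h2, h3⟩

end Cfsg.Agent.Lib.Helper90.Syl2
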