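import Cfsg.Agent.Lib.Helper90.Syl2.Defs

set_option autoImplicit false

/-! Ladder SYL2O, rung A1 (helper41). -/

namespace Cfsg.Agent.Lib.Helper90.Syl2

open Subgroup
open scoped commutatorElement

theorem a1_mem_sup_of_le_normalizer {G : Type*} [Group G] {K X : Subgroup G}
    (h : X ≤ normalizer (K : Set G)) {g : G} : g ∈ K ⊔ X ↔ ∃ k ∈ K, ∃ x ∈ X, g = k * x := by
  rw [← SetLike.mem_coe, coe_mul_of_right_le_normalizer_left K X h, Set.mem_mul]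
  constructor
  · rintro ⟨n, hn, x, hx, rfl⟩; exact ⟨n, hn, x, hx, rfl⟩
  · rintro ⟨n, hn, x, hx, rfl⟩; exact ⟨n, hn, x, hx, rfl⟩

theorem a1_le_normalizer {G : Type*} [Group G] {X Y : Subgroup G}
    (hc : ∀ x ∈ X, ∀ y ∈ Y, Commute x y) : Y ≤ normalizer (X : Set G) := by
  intro y hy
  rw [mem_normalizer_iff]
  intro h
  constructor
  · intro hh
    have : y * h * y⁻¹ = h := by rw [← (hc h hh y hy).eq, mul_inv_cancel_right]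
    rw [this]
    exact hh
  · intro hh
    have h1 := (hc _ hh y hy).eq
    have h2 : h = y * h * y⁻¹ := by
      have h3 : y * h * y⁻¹ * y = y * h := by group
      rw [h3] at h1
      exact mul_left_cancel h1
    rw [h2]
    exact hh

theorem a1_mem_sup {G : Type*} [Group G] {X Y : Subgroup G}
    (hc : ∀ x ∈ X, ∀ y ∈ Y, Commute x y) {g : G} :
    g ∈ X ⊔ Y ↔ ∃ x ∈ X, ∃ y ∈ Y, g = x * y :=
  a1_mem_sup_of_le_normalizer (a1_le_normalizer hc)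

theorem a1_comm_prod {G : Type*} [Group G] {x x' y y' : G} (h1 : Commute x y) (h2 : Commute x y')
    (h3 : Commute x' y) (h4 : Commute x' y') : ⁅x * y, x' * y'⁆ = ⁅x, x'⁆ * ⁅y, y'⁆ := by
  have e1 : Commute (y * y') x⁻¹ := (h1.symm.mul_left h2.symm).inv_right
  have e2 : Commute (y * y' * y⁻¹) x'⁻¹ :=
    ((h3.symm.mul_left h4.symm).mul_left h3.symm.inv_left).inv_right
  calc ⁅x * y, x' * y'⁆ = (x * y) * (x' * y') * (x * y)⁻¹ * (x' * y')⁻¹ :=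
        commutatorElement_def _ _
    _ = (x * y) * (x' * y') * (x⁻¹ * y⁻¹) * (x'⁻¹ * y'⁻¹) := by rw [h1.mul_inv, h4.mul_inv]
    _ = (x * x') * (y * y') * (x⁻¹ * y⁻¹) * (x'⁻¹ * y'⁻¹) := by
        rw [h3.symm.mul_mul_mul_comm]
    _ = (x * x' * x⁻¹) * (y * y' * y⁻¹) * (x'⁻¹ * y'⁻¹) := by rw [e1.mul_mul_mul_comm]
    _ = (x * x' * x⁻¹ * x'⁻¹) * (y * y' * y⁻¹ * y'⁻¹) := by rw [e2.mul_mul_mul_comm]
    _ = ⁅x, x'⁆ * ⁅y, y'⁆ := by rw [commutatorElement_def, commutatorElement_def]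

/-- A1 -/
theorem sqIn_prod_inf {G : Type*} [Group G] (N X Y : Subgroup G)
    (hc : ∀ x ∈ X, ∀ y ∈ Y, Commute x y) (hX : SqIn X) (hY : SqIn Y)
    (h1 : ∀ x ∈ X, ∃ y ∈ Y, x * y ∈ N)
    (h2 : ∀ y ∈ Y, ∀ y' ∈ Y, ∃ x ∈ X, ∃ x' ∈ X, Commute x x' ∧ x * y ∈ N ∧ x' * y' ∈ N) :
    SqIn ((X ⊔ Y) ⊓ N) := by
  have hmem : ∀ x ∈ X, ∀ y ∈ Y, x * y ∈ N → x * y ∈ (X ⊔ Y) ⊓ N := fun x hx y hy h =>
    ⟨(X ⊔ Y).mul_mem ((le_sup_left : X ≤ X ⊔ Y) hx) ((le_sup_right : Y ≤ X ⊔ Y) hy), h⟩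
  have hYY : ⁅Y, Y⁆ ≤ ⁅(X ⊔ Y) ⊓ N, (X ⊔ Y) ⊓ N⁆ := by
    rw [commutator_le]
    intro y hy y' hy'
    obtain ⟨x, hx, x', hx', hxx, hxy, hxy'⟩ := h2 y hy y' hy'
    have h3 := commutator_mem_commutator (hmem x hx y hy hxy) (hmem x' hx' y' hy' hxy')
    rw [a1_comm_prod (hc x hx y hy) (hc x hx y' hy') (hc x' hx' y hy) (hc x' hx' y' hy'),
      commutatorElement_eq_one_iff_commute.2 hxx, one_mul] at h3
    exact h3
  have hXX : ⁅X, X⁆ ≤ ⁅(X ⊔ Y) ⊓ N, (X ⊔ Y) ⊓ N⁆ := by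
    rw [commutator_le]
    intro x hx x' hx'
    obtain ⟨y, hy, hxy⟩ := h1 x hx
    obtain ⟨y', hy', hxy'⟩ := h1 x' hx'
    have h3 := commutator_mem_commutator (hmem x hx y hy hxy) (hmem x' hx' y' hy' hxy')
    rw [a1_comm_prod (hc x hx y hy) (hc x hx y' hy') (hc x' hx' y hy) (hc x' hx' y' hy')] at h3
    have h4 := hYY (commutator_mem_commutator hy hy')
    have h5 : ⁅x, x'⁆ = (⁅x, x'⁆ * ⁅y, y'⁆) * ⁅y, y'⁆⁻¹ := by group
    rw [h5]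
    exact Subgroup.mul_mem _ h3 (Subgroup.inv_mem _ h4)
  intro r hr
  obtain ⟨x, hx, y, hy, rfl⟩ := (a1_mem_sup hc).1 hr.1
  rw [(hc x hx y hy).mul_pow]
  exact Subgroup.mul_mem _ (hXX (hX x hx)) (hYY (hY y hy))

end Cfsg.Agent.Lib.Helper90.Syl2
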