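import Cfsg.Agent.Lib.Helper90.Syl2.Defs
import Cfsg.Agent.Lib.Helper90.Syl2.A1

set_option autoImplicit false

/-! Ladder SYL2O, rung A2 (helper41). -/

namespace Cfsg.Agent.Lib.Helper90.Syl2

open Subgroup
open scoped commutatorElement

section
variable {G : Type*} [Group G]

theorem a2_zpowers {σ : G} (hσ : σ * σ = 1) {s : G} (hs : s ∈ zpowers σ) : s = 1 ∨ s = σ := by
  obtain ⟨k, rfl⟩ := mem_zpowers_iff.1 hs
  rcases Int.even_or_odd' k with ⟨m, rfl | rfl⟩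
  · left
    rw [zpow_mul, zpow_two, hσ, one_zpow]
  · right
    rw [zpow_add, zpow_mul, zpow_two, hσ, one_zpow, one_mul, zpow_one]

theorem a2_mem_normalizer {σ : G} (hσ : σ * σ = 1) {M : Subgroup G}
    (h : ∀ m ∈ M, σ * m * σ⁻¹ ∈ M) : σ ∈ normalizer (M : Set G) := by
  rw [mem_normalizer_iff]
  intro m
  refine ⟨h m, fun hm => ?_⟩
  have h1 := h _ hm
  have h2 : σ * (σ * m * σ⁻¹) * σ⁻¹ = (σ * σ) * m * (σ * σ)⁻¹ := by group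
  rw [h2, hσ] at h1
  simpa using h1

theorem a2_conj_mem {R : Subgroup G} {r c : G} (hr : r ∈ R) (hc : c ∈ ⁅R, R⁆) :
    r * c * r⁻¹ ∈ ⁅R, R⁆ := by
  have h1 : r * c * r⁻¹ = ⁅r, c⁆ * c := by
    rw [commutatorElement_def]
    group
  rw [h1]
  exact Subgroup.mul_mem _ (commutator_mem_commutator hr (commutator_le_self R hc)) hc

theorem a2_comm_mem {N : Subgroup G} (hN : commutator G ≤ N) (a b : G) : ⁅a, b⁆ ∈ N :=
  hN (commutator_mem_commutator (mem_top a) (mem_top b))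

theorem a2_normal {N : Subgroup G} (hN : commutator G ≤ N) {n : G} (hn : n ∈ N) (g : G) :
    g * n * g⁻¹ ∈ N := by
  have h1 : g * n * g⁻¹ = ⁅g, n⁆ * n := by
    rw [commutatorElement_def]
    group
  rw [h1]
  exact N.mul_mem (a2_comm_mem hN g n) hn

theorem a2_tilde_mem {N : Subgroup G} (hN : commutator G ≤ N) (σ g : G) :
    g⁻¹ * (σ * g * σ⁻¹) ∈ N := by
  have h1 : g⁻¹ * (σ * g * σ⁻¹) = ⁅g⁻¹, σ⁆ := by
    rw [commutatorElement_def]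
    group
  rw [h1]
  exact a2_comm_mem hN _ _

variable {X : Subgroup G} {σ : G}

theorem a2_nf1 (hc : ∀ x ∈ X, ∀ x' ∈ X, Commute x (σ * x' * σ⁻¹)) {g : G} :
    g ∈ X ⊔ X.map (MulAut.conj σ).toMonoidHom ↔
      ∃ x1 ∈ X, ∃ x2 ∈ X, g = x1 * (σ * x2 * σ⁻¹) := by
  rw [a1_mem_sup (Y := X.map (MulAut.conj σ).toMonoidHom) (fun x hx y hy => by
    obtain ⟨x', hx', rfl⟩ := hy
    exact hc x hx x' hx')]
  constructor
  · rintro ⟨x1, h1, _, ⟨x2, h2, rfl⟩, rfl⟩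
    exact ⟨x1, h1, x2, h2, rfl⟩
  · rintro ⟨x1, h1, x2, h2, rfl⟩
    exact ⟨x1, h1, _, ⟨x2, h2, rfl⟩, rfl⟩

theorem a2_sigma_norm (hσ : σ * σ = 1) (hc : ∀ x ∈ X, ∀ x' ∈ X, Commute x (σ * x' * σ⁻¹)) :
    σ ∈ normalizer ((X ⊔ X.map (MulAut.conj σ).toMonoidHom : Subgroup G) : Set G) := by
  apply a2_mem_normalizer hσ
  intro m hm
  obtain ⟨x1, h1, x2, h2, rfl⟩ := (a2_nf1 hc).1 hm
  rw [a2_nf1 hc]
  refine ⟨x2, h2, x1, h1, ?_⟩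
  rw [(hc x2 h2 x1 h1).eq]
  have h3 : σ * (x1 * (σ * x2 * σ⁻¹)) * σ⁻¹ = σ * x1 * σ⁻¹ * ((σ * σ) * x2 * (σ * σ)⁻¹) := by
    group
  rw [h3, hσ]
  simp

/-- normal form in `(X × X~) ⋊ ⟨σ⟩` -/
theorem a2_nf2 (hσ : σ * σ = 1) (hc : ∀ x ∈ X, ∀ x' ∈ X, Commute x (σ * x' * σ⁻¹)) {g : G}
    (hg : g ∈ X ⊔ X.map (MulAut.conj σ).toMonoidHom ⊔ zpowers σ) :
    ∃ x1 ∈ X, ∃ x2 ∈ X, g = x1 * (σ * x2 * σ⁻¹) ∨ g = x1 * (σ * x2 * σ⁻¹) * σ := by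
  obtain ⟨m, hm, s, hs, rfl⟩ :=
    (a1_mem_sup_of_le_normalizer (zpowers_le.2 (a2_sigma_norm hσ hc))).1 hg
  obtain ⟨x1, h1, x2, h2, rfl⟩ := (a2_nf1 hc).1 hm
  refine ⟨x1, h1, x2, h2, ?_⟩
  rcases a2_zpowers hσ hs with rfl | rfl
  · left
    rw [mul_one]
  · right
    rfl

theorem a2_sq0 (hc : ∀ x ∈ X, ∀ x' ∈ X, Commute x (σ * x' * σ⁻¹)) {x1 x2 : G} (h1 : x1 ∈ X)
    (h2 : x2 ∈ X) : (x1 * (σ * x2 * σ⁻¹)) ^ 2 = x1 ^ 2 * (σ * x2 ^ 2 * σ⁻¹) := by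
  rw [(hc x1 h1 x2 h2).mul_pow, conj_pow]

theorem a2_sq1 (hσ : σ * σ = 1) (hc : ∀ x ∈ X, ∀ x' ∈ X, Commute x (σ * x' * σ⁻¹)) {x1 x2 : G}
    (h1 : x1 ∈ X) (h2 : x2 ∈ X) :
    (x1 * (σ * x2 * σ⁻¹) * σ) ^ 2 = x1 * x2 * (σ * (x2 * x1) * σ⁻¹) := by
  calc (x1 * (σ * x2 * σ⁻¹) * σ) ^ 2
      = x1 * (σ * (x2 * x1) * σ⁻¹) * (σ * σ) * x2 * (σ⁻¹ * σ) := by
        rw [sq]
        group
    _ = x1 * (σ * (x2 * x1) * σ⁻¹) * x2 := by rw [hσ, inv_mul_cancel, mul_one, mul_one]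
    _ = x1 * x2 * (σ * (x2 * x1) * σ⁻¹) := by
        rw [mul_assoc, ← (hc x2 h2 (x2 * x1) (X.mul_mem h2 h1)).eq, ← mul_assoc]

end

/-- A2 -/
theorem sqIn_wreath_inf {G : Type*} [Group G] (N X : Subgroup G) (hN : commutator G ≤ N)
    (σ t : G) (hσ : σ * σ = 1) (ht : t * t = 1) (hσt : Commute σ t)
    (htX : ∀ x ∈ X, Commute t x) (hc : ∀ x ∈ X, ∀ x' ∈ X, Commute x (σ * x' * σ⁻¹))
    (hσN : σ ∈ N) (hX : SqIn X) (hC : CommP N X) :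
    SqIn ((X ⊔ X.map (MulAut.conj σ).toMonoidHom ⊔ Subgroup.zpowers σ ⊔ Subgroup.zpowers t) ⊓ N) := by
  set P : Subgroup G :=
    X ⊔ X.map (MulAut.conj σ).toMonoidHom ⊔ Subgroup.zpowers σ ⊔ Subgroup.zpowers t with hP
  have hXP : X ≤ P := le_sup_left.trans (le_sup_left.trans le_sup_left)
  have hσP : σ ∈ P :=
    (le_sup_left : _ ≤ P) ((le_sup_right : zpowers σ ≤ _) (mem_zpowers σ))
  have htP : zpowers t ≤ P := le_sup_right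
  have hX'P : ∀ x ∈ X, σ * x * σ⁻¹ ∈ P := fun x hx =>
    P.mul_mem (P.mul_mem hσP (hXP hx)) (P.inv_mem hσP)
  have hσR : σ ∈ P ⊓ N := ⟨hσP, hσN⟩
  -- (1)
  have hXX : ⁅X, X⁆ ≤ ⁅P ⊓ N, P ⊓ N⁆ := by
    rw [commutator_le]
    intro x hx x' hx'
    obtain ⟨a, ha, a', ha', haa, hxa, hxa'⟩ := hC x hx x' hx'
    have hmem : ∀ y ∈ X, ∀ b ∈ X, y * b ∈ N → y * (σ * b * σ⁻¹) ∈ P ⊓ N := by
      intro y hy b hb hyb
      refine ⟨P.mul_mem (hXP hy) (hX'P b hb), ?_⟩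
      have : y * (σ * b * σ⁻¹) = (y * b) * (b⁻¹ * (σ * b * σ⁻¹)) := by group
      rw [this]
      exact N.mul_mem hyb (a2_tilde_mem hN σ b)
    have h3 := commutator_mem_commutator (hmem x hx a ha hxa) (hmem x' hx' a' ha' hxa')
    have h4 : Commute (σ * a * σ⁻¹) (σ * a' * σ⁻¹) := by
      have : (σ * a * σ⁻¹) * (σ * a' * σ⁻¹) = (σ * a' * σ⁻¹) * (σ * a * σ⁻¹) := by
        calc (σ * a * σ⁻¹) * (σ * a' * σ⁻¹) = σ * (a * a') * σ⁻¹ := by group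
          _ = σ * (a' * a) * σ⁻¹ := by rw [haa.eq]
          _ = (σ * a' * σ⁻¹) * (σ * a * σ⁻¹) := by group
      exact this
    rw [a1_comm_prod (hc x hx a ha) (hc x hx a' ha') (hc x' hx' a ha) (hc x' hx' a' ha'),
      commutatorElement_eq_one_iff_commute.2 h4, mul_one] at h3
    exact h3
  -- (2)
  have hXX' : ∀ c ∈ ⁅X, X⁆, σ * c * σ⁻¹ ∈ ⁅P ⊓ N, P ⊓ N⁆ := fun c hc' =>
    a2_conj_mem hσR (hXX hc')
  -- `t` centralizes the rest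
  have hcent : X ⊔ X.map (MulAut.conj σ).toMonoidHom ⊔ Subgroup.zpowers σ ≤ centralizer {t} := by
    refine sup_le (sup_le ?_ ?_) ?_
    · intro x hx
      rw [mem_centralizer_singleton_iff]
      exact (htX x hx).symm.eq
    · rintro _ ⟨x, hx, rfl⟩
      rw [mem_centralizer_singleton_iff]
      exact ((hσt.mul_left (htX x hx).symm).mul_left hσt.inv_left).eq
    · rw [zpowers_le, mem_centralizer_singleton_iff]
      exact hσt.eq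
  intro r hr
  obtain ⟨m, hm, τ, hτ, rfl⟩ := (a1_mem_sup (X := X ⊔ X.map (MulAut.conj σ).toMonoidHom ⊔
      Subgroup.zpowers σ) (Y := zpowers t) (by
    intro p hp τ hτ
    obtain ⟨k, rfl⟩ := mem_zpowers_iff.1 hτ
    have : Commute p t := mem_centralizer_singleton_iff.1 (hcent hp)
    exact this.zpow_right k)).1 hr.1
  have hmτ : Commute m τ := by
    obtain ⟨k, rfl⟩ := mem_zpowers_iff.1 hτ
    have : Commute m t := mem_centralizer_singleton_iff.1 (hcent hm)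
    exact this.zpow_right k
  have hττ : τ ^ 2 = 1 := by
    rcases a2_zpowers ht hτ with rfl | rfl
    · simp
    · rw [sq, ht]
  rw [hmτ.mul_pow, hττ, mul_one]
  obtain ⟨x1, h1, x2, h2, rfl | rfl⟩ := a2_nf2 hσ hc hm
  · rw [a2_sq0 hc h1 h2]
    exact Subgroup.mul_mem _ (hXX (hX x1 h1)) (hXX' _ (hX x2 h2))
  · rw [a2_sq1 hσ hc h1 h2]
    have hτσ : Commute τ σ := by
      obtain ⟨k, rfl⟩ := mem_zpowers_iff.1 hτ
      exact (hσt.symm).zpow_left k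
    have hτX : ∀ x ∈ X, Commute τ x := by
      intro x hx
      obtain ⟨k, rfl⟩ := mem_zpowers_iff.1 hτ
      exact (htX x hx).zpow_left k
    have hz : x1 * x2 ∈ X := X.mul_mem h1 h2
    have hw : x1 * x2 * τ ∈ P ⊓ N := by
      refine ⟨P.mul_mem (hXP hz) (htP hτ), ?_⟩
      have h3 : x1 * x2 * τ = (x1 * σ * x1⁻¹)⁻¹ * (x1 * (σ * x2 * σ⁻¹) * σ * τ) := by group
      rw [h3]
      exact N.mul_mem (N.inv_mem (a2_normal hN hσN x1)) hr.2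
    have h4 : x1 * x2 * (σ * (x2 * x1) * σ⁻¹)
        = (x1 * x2) ^ 2 * ((x1 * x2)⁻¹ * σ * (x1 * x2) * σ⁻¹) *
          (σ * ⁅x2⁻¹, x1⁻¹⁆ * σ⁻¹) := by
      rw [commutatorElement_def, sq]
      group
    rw [h4]
    refine Subgroup.mul_mem _ (Subgroup.mul_mem _ (hXX (hX _ hz)) ?_)
      (hXX' _ (commutator_mem_commutator (X.inv_mem h2) (X.inv_mem h1)))
    have h5 : ⁅(x1 * x2 * τ)⁻¹, σ⁆ = (x1 * x2)⁻¹ * σ * (x1 * x2) * σ⁻¹ := by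
      have hτc : Commute τ ((x1 * x2)⁻¹ * σ * (x1 * x2)) :=
        (((hτX _ hz).inv_right).mul_right hτσ).mul_right (hτX _ hz)
      calc ⁅(x1 * x2 * τ)⁻¹, σ⁆ = τ⁻¹ * ((x1 * x2)⁻¹ * σ * (x1 * x2)) * τ * σ⁻¹ := by
            rw [commutatorElement_def]
            group
        _ = (x1 * x2)⁻¹ * σ * (x1 * x2) * σ⁻¹ := by rw [hτc.inv_mul_cancel]
    rw [← h5]
    exact commutator_mem_commutator (Subgroup.inv_mem _ hw) hσR

end Cfsg.Agent.Lib.Helper90.Syl2
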