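import Cfsg.Agent.Lib.Helper90.Syl2.Defs
import Cfsg.Agent.Lib.Helper90.Syl2.A1
import Cfsg.Agent.Lib.Helper90.Syl2.A2

set_option autoImplicit false

/-! Ladder SYL2O, rung A3 (helper41). -/

namespace Cfsg.Agent.Lib.Helper90.Syl2

open Subgroup
open scoped commutatorElement

/-- A3 -/
theorem sqIn_wreath_tight {G : Type*} [Group G] (N X : Subgroup G) (hN : commutator G ≤ N)
    (σ : G) (hσ : σ * σ = 1) (hc : ∀ x ∈ X, ∀ x' ∈ X, Commute x (σ * x' * σ⁻¹))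
    (hσN : σ ∈ N) (hX : SqIn X) (hT : ∀ x ∈ X, x ∈ N → x ∈ ⁅X, X⁆) :
    SqIn ((X ⊔ X.map (MulAut.conj σ).toMonoidHom ⊔ Subgroup.zpowers σ) ⊓ N) := by
  set P : Subgroup G := X ⊔ X.map (MulAut.conj σ).toMonoidHom ⊔ Subgroup.zpowers σ with hP
  have hXP : X ≤ P := le_sup_left.trans le_sup_left
  have hσP : σ ∈ P := (le_sup_right : zpowers σ ≤ P) (mem_zpowers σ)
  have hX'P : ∀ x ∈ X, σ * x * σ⁻¹ ∈ P := fun x hx =>
    P.mul_mem (P.mul_mem hσP (hXP hx)) (P.inv_mem hσP)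
  have hσR : σ ∈ P ⊓ N := ⟨hσP, hσN⟩
  have hCN : ⁅X, X⁆ ≤ N := (commutator_mono le_top le_top).trans hN
  have hCX : ⁅X, X⁆ ≤ X := commutator_le_self X
  have hdR : ∀ x ∈ X, x * (σ * x * σ⁻¹) ∈ P ⊓ N := by
    intro x hx
    refine ⟨P.mul_mem (hXP hx) (hX'P x hx), ?_⟩
    have h1 : x * (σ * x * σ⁻¹) = x ^ 2 * (x⁻¹ * (σ * x * σ⁻¹)) := by
      rw [sq]
      group
    rw [h1]
    exact N.mul_mem (hCN (hX x hx)) (a2_tilde_mem hN σ x)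
  -- (a)
  let D : Subgroup G :=
    { carrier := {c | c ∈ X ∧ c * (σ * c * σ⁻¹) ∈ ⁅P ⊓ N, P ⊓ N⁆}
      one_mem' := ⟨X.one_mem, by simp⟩
      mul_mem' := by
        rintro c c' ⟨h1, h2⟩ ⟨h1', h2'⟩
        refine ⟨X.mul_mem h1 h1', ?_⟩
        have h3 : c * c' * (σ * (c * c') * σ⁻¹)
            = (c * (σ * c * σ⁻¹)) * (c' * (σ * c' * σ⁻¹)) := by
          calc c * c' * (σ * (c * c') * σ⁻¹)
              = c * (c' * (σ * c * σ⁻¹)) * (σ * c' * σ⁻¹) := by group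
            _ = c * ((σ * c * σ⁻¹) * c') * (σ * c' * σ⁻¹) := by rw [(hc c' h1' c h1).eq]
            _ = (c * (σ * c * σ⁻¹)) * (c' * (σ * c' * σ⁻¹)) := by group
        rw [h3]
        exact Subgroup.mul_mem _ h2 h2'
      inv_mem' := by
        rintro c ⟨h1, h2⟩
        refine ⟨X.inv_mem h1, ?_⟩
        have h3 : c⁻¹ * (σ * c⁻¹ * σ⁻¹) = (c * (σ * c * σ⁻¹))⁻¹ := by
          rw [(hc c⁻¹ (X.inv_mem h1) c⁻¹ (X.inv_mem h1)).eq]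
          group
        rw [h3]
        exact Subgroup.inv_mem _ h2 }
  have ha : ∀ c ∈ ⁅X, X⁆, c * (σ * c * σ⁻¹) ∈ ⁅P ⊓ N, P ⊓ N⁆ := by
    have hle : ⁅X, X⁆ ≤ D := by
      rw [commutator_le]
      intro x hx x' hx'
      refine ⟨hCX (commutator_mem_commutator hx hx'), ?_⟩
      have h1 := commutator_mem_commutator (hdR x hx) (hdR x' hx')
      rw [a1_comm_prod (hc x hx x hx) (hc x hx x' hx') (hc x' hx' x hx) (hc x' hx' x' hx')] at h1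
      have h2 : ⁅σ * x * σ⁻¹, σ * x' * σ⁻¹⁆ = σ * ⁅x, x'⁆ * σ⁻¹ := by
        rw [commutatorElement_def, commutatorElement_def]
        group
      rw [h2] at h1
      exact h1
    exact fun c hc' => (hle hc').2
  -- (b)
  have hb : ∀ y ∈ X, y ∈ N → y⁻¹ * (σ * y * σ⁻¹) ∈ ⁅P ⊓ N, P ⊓ N⁆ := by
    intro y hy hyN
    have h1 : y⁻¹ * (σ * y * σ⁻¹) = ⁅y⁻¹, σ⁆ := by
      rw [commutatorElement_def]
      group
    rw [h1]
    exact commutator_mem_commutator (Subgroup.inv_mem _ ⟨hXP hy, hyN⟩) hσR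
  -- (c)
  have hcc : ∀ y ∈ X, y ∈ N → y ^ 2 ∈ ⁅P ⊓ N, P ⊓ N⁆ := by
    intro y hy hyN
    have h1 : y ^ 2 = (y * (σ * y * σ⁻¹)) * (y⁻¹ * (σ * y * σ⁻¹))⁻¹ := by
      rw [sq]
      group
    rw [h1]
    exact Subgroup.mul_mem _ (ha y (hT y hy hyN)) (Subgroup.inv_mem _ (hb y hy hyN))
  -- (d)
  have hd : ∀ x ∈ X, ∀ y ∈ X, y ∈ N → ⁅x, y⁆ ∈ ⁅P ⊓ N, P ⊓ N⁆ := by
    intro x hx y hy hyN
    have h1 := commutator_mem_commutator (hdR x hx) (show y * 1 ∈ P ⊓ N by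
      rw [mul_one]
      exact ⟨hXP hy, hyN⟩)
    rw [a1_comm_prod (hc x hx x hx) (Commute.one_right x) (hc y hy x hx) (Commute.one_right y),
      commutatorElement_one_right, mul_one] at h1
    exact h1
  intro r hr
  obtain ⟨x1, h1, x2, h2, rfl | rfl⟩ := a2_nf2 hσ hc hr.1
  · rw [a2_sq0 hc h1 h2]
    have hy : x1 * x2 ∈ X := X.mul_mem h1 h2
    have hyN : x1 * x2 ∈ N := by
      have h3 : x1 * x2 = (x1 * (σ * x2 * σ⁻¹)) * (x2⁻¹ * (σ * x2 * σ⁻¹))⁻¹ := by group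
      rw [h3]
      exact N.mul_mem hr.2 (N.inv_mem (a2_tilde_mem hN σ x2))
    have hcX : (x1 ^ 2)⁻¹ ∈ X := X.inv_mem (hCX (hX x1 h1))
    have hcN : (x1 ^ 2)⁻¹ ∈ N := N.inv_mem (hCN (hX x1 h1))
    have h4 : x1 ^ 2 * (σ * x2 ^ 2 * σ⁻¹)
        = (((x1 ^ 2)⁻¹)⁻¹ * (σ * (x1 ^ 2)⁻¹ * σ⁻¹)) *
          (σ * (⁅x1, x1 * x2⁆ * (x1 * x2) ^ 2) * σ⁻¹) := by
      have e1 : ⁅x1, x1 * x2⁆ * (x1 * x2) ^ 2 = x1 ^ 2 * x2 ^ 2 := by
        simp only [commutatorElement_def, sq, mul_assoc, mul_inv_rev, inv_mul_cancel_left]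
      rw [e1]
      generalize x1 ^ 2 = c
      generalize x2 ^ 2 = e
      group
    rw [h4]
    exact Subgroup.mul_mem _ (hb _ hcX hcN)
      (a2_conj_mem hσR (Subgroup.mul_mem _ (hd x1 h1 _ hy hyN) (hcc _ hy hyN)))
  · rw [a2_sq1 hσ hc h1 h2]
    have hz : x1 * x2 ∈ X := X.mul_mem h1 h2
    have hzN : x1 * x2 ∈ N := by
      have h3 : x1 * x2 = (x1 * σ * x1⁻¹)⁻¹ * (x1 * (σ * x2 * σ⁻¹) * σ) := by group
      rw [h3]
      exact N.mul_mem (N.inv_mem (a2_normal hN hσN x1)) hr.2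
    have h4 : x1 * x2 * (σ * (x2 * x1) * σ⁻¹)
        = ((x1 * x2) * (σ * (x1 * x2) * σ⁻¹)) * (σ * ⁅x1⁻¹, (x1 * x2)⁻¹⁆⁻¹ * σ⁻¹) := by
      rw [commutatorElement_def]
      group
    rw [h4]
    exact Subgroup.mul_mem _ (ha _ (hT _ hz hzN))
      (a2_conj_mem hσR (Subgroup.inv_mem _ (hd _ (X.inv_mem h1) _ (X.inv_mem hz)
        (N.inv_mem hzN))))

end Cfsg.Agent.Lib.Helper90.Syl2
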