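import Cfsg.Agent.Lib.Helper90.Syl2.Defs
import Cfsg.Agent.Lib.Helper90.Syl2.A8

/-!
Ladder SYL2O, rung A4: from one 2-subgroup of odd index to all Sylow 2-subgroups of `G'`.
-/

set_option autoImplicit false

namespace Cfsg.Agent.Lib.Helper90.Syl2

open scoped Pointwise

theorem a4_sqIn_of_map {G H : Type*} [Group G] [Group H] (f : G →* H)
    (hf : Function.Injective f) {R : Subgroup G} (h : SqIn (R.map f)) : SqIn R := by
  intro r hr
  have h1 := h (f r) (Subgroup.mem_map_of_mem f hr)
  rw [← Subgroup.map_commutator] at h1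
  obtain ⟨z, hz, e⟩ := h1
  have : z = r ^ 2 := hf (by rw [e, map_pow])
  exact this ▸ hz

theorem target_of_sylow {G : Type*} [Group G] [Finite G] (P : Subgroup G) (hP : IsPGroup 2 P)
    (hodd : Odd P.index) (hs : SqIn (P ⊓ commutator G)) : Target G := by
  classical
  have : Fact (Nat.Prime 2) := ⟨Nat.prime_two⟩
  have hnd : ¬ 2 ∣ P.index := by
    rw [← even_iff_two_dvd, Nat.not_even_iff_odd]; exact hodd
  let PS : Sylow 2 G := hP.toSylow hnd
  have hPS : (PS : Subgroup G) = P := rfl
  intro Q
  rw [A8_sq_iff]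
  apply a4_sqIn_of_map (commutator G).subtype (Subgroup.subtype_injective _)
  obtain ⟨S, hS⟩ := (Q.isPGroup'.map (commutator G).subtype).exists_le_sylow
  obtain ⟨g, hg⟩ := MulAction.exists_smul_eq G PS S
  set T : Subgroup G := (P ⊓ commutator G).map (MulAut.conj g).toMonoidHom with hT
  have hTN : T ≤ commutator G := by
    rintro _ ⟨x, hx, rfl⟩
    exact (inferInstance : (commutator G).Normal).conj_mem x hx.2 g
  have hTp : IsPGroup 2 T := (hP.to_le inf_le_left).map _
  have hQT : (Q : Subgroup (commutator G)).map (commutator G).subtype ≤ T := by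
    intro q hq
    have h1 : q ∈ (S : Subgroup G) := hS hq
    rw [← hg, Sylow.coe_subgroup_smul, Subgroup.mem_pointwise_smul_iff_inv_smul_mem, hPS] at h1
    have h2 : q ∈ commutator G := by
      obtain ⟨z, -, rfl⟩ := hq
      exact z.2
    refine ⟨g⁻¹ * q * g, ⟨?_, ?_⟩, ?_⟩
    · simpa [MulAut.smul_def] using h1
    · simpa using (inferInstance : (commutator G).Normal).conj_mem q h2 g⁻¹
    · simp [mul_assoc]
  have hle : (Q : Subgroup (commutator G)) ≤ T.subgroupOf (commutator G) := by
    intro z hz
    exact hQT (Subgroup.mem_map_of_mem _ hz)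
  have hTp' : IsPGroup 2 (T.subgroupOf (commutator G)) := hTp.comap_subtype
  have heq := Q.is_maximal' hTp' hle
  have : (Q : Subgroup (commutator G)).map (commutator G).subtype = T := by
    rw [← heq, Subgroup.subgroupOf_map_subtype, inf_eq_left.2 hTN]
  rw [this]
  exact hs.map _

end Cfsg.Agent.Lib.Helper90.Syl2
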