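import Cfsg.Agent.Lib.Helper90.Syl2.Defs

set_option autoImplicit false

namespace Cfsg.Agent.Lib.Helper90.Syl2

open scoped Pointwise

/-- A5. -/
theorem ontoP_of_odd {G : Type*} [Group G] [Finite G] (N X : Subgroup G) [N.Normal]
    (hN : ∃ e : ℕ, N.index = 2 ^ e) (hX : Odd X.index) : OntoP N X := by
  obtain ⟨e, he⟩ := hN
  have h1 : (X ⊔ N).index ∣ X.index := Subgroup.index_dvd_of_le le_sup_left
  have h2 : (X ⊔ N).index ∣ 2 ^ e := he ▸ Subgroup.index_dvd_of_le le_sup_right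
  have hcop : Nat.Coprime X.index (2 ^ e) :=
    Nat.Coprime.pow_right e (Nat.Coprime.symm (Nat.coprime_two_left.2 hX))
  have h3 : (X ⊔ N).index = 1 := Nat.eq_one_of_dvd_coprimes hcop h1 h2
  have htop : X ⊔ N = ⊤ := Subgroup.index_eq_one.1 h3
  intro g
  have hg : g⁻¹ ∈ X ⊔ N := by rw [htop]; exact Subgroup.mem_top _
  have hg' : g⁻¹ ∈ (X : Set G) * (N : Set G) := by
    rw [← Subgroup.mul_normal]; exact hg
  obtain ⟨x, hx, n, hn, e1⟩ := Set.mem_mul.1 hg'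
  refine ⟨x, hx, ?_⟩
  have e2 : g * x = n⁻¹ := by
    have : g = (x * n)⁻¹ := by rw [e1, inv_inv]
    rw [this]; group
  rw [e2]
  exact N.inv_mem hn

end Cfsg.Agent.Lib.Helper90.Syl2
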