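import Cfsg.Agent.Lib.Helper90.Syl2.A6

set_option autoImplicit false

namespace Cfsg.Agent.Lib.Helper90.Syl2

/-- A7. -/
theorem pack_wreath {A G : Type*} [Group A] [Group G] [Finite G] (j : A × A →* G)
    (hj : Function.Injective j) (σ : G) (hσ : σ * σ = 1)
    (hσj : ∀ x y, σ * j (x, y) * σ⁻¹ = j (y, x)) (hσn : σ ∉ j.range)
    (hk : padicValNat 2 (Nat.card G) = 2 * padicValNat 2 (Nat.card A) + 1)
    (X : Subgroup A) (hX : IsPGroup 2 X) (hXo : Odd X.index) :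
    IsPGroup 2 (X.map (j.comp (MonoidHom.inl A A)) ⊔
        (X.map (j.comp (MonoidHom.inl A A))).map (MulAut.conj σ).toMonoidHom ⊔
        Subgroup.zpowers σ : Subgroup G) ∧
      Odd (X.map (j.comp (MonoidHom.inl A A)) ⊔
        (X.map (j.comp (MonoidHom.inl A A))).map (MulAut.conj σ).toMonoidHom ⊔
        Subgroup.zpowers σ : Subgroup G).index := by
  have : Finite (A × A) := Finite.of_injective j hj
  have : Finite A := Finite.of_injective (fun a : A => ((a, 1) : A × A))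
    (fun a b h => (Prod.mk.inj h).1)
  have hM : X.map (j.comp (MonoidHom.inl A A)) ⊔
      (X.map (j.comp (MonoidHom.inl A A))).map (MulAut.conj σ).toMonoidHom = (X.prod X).map j := by
    apply le_antisymm
    · rw [sup_le_iff]
      constructor
      · rintro _ ⟨x, hx, rfl⟩
        exact ⟨(x, 1), ⟨hx, X.one_mem⟩, rfl⟩
      · rintro _ ⟨_, ⟨x, hx, rfl⟩, rfl⟩
        refine ⟨(1, x), ⟨X.one_mem, hx⟩, ?_⟩
        exact (hσj x 1).symm
    · rintro _ ⟨⟨x, y⟩, ⟨hx, hy⟩, rfl⟩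
      have e : j (x, y) = j (x, 1) * j (1, y) := by rw [← map_mul]; simp
      rw [e]
      refine Subgroup.mul_mem_sup ⟨x, hx, rfl⟩ ⟨j (y, 1), ⟨y, hy, rfl⟩, ?_⟩
      exact hσj y 1
  rw [hM]
  set M := (X.prod X).map j with hMdef
  have hcM : Nat.card M = 2 ^ (2 * padicValNat 2 (Nat.card A)) := by
    rw [hMdef, Subgroup.card_map_of_injective hj, Nat.card_congr (Subgroup.prodEquiv X X).toEquiv,
      Nat.card_prod, A6_card_of_odd X hX hXo, two_mul, pow_add]
  have hMp : IsPGroup 2 M := IsPGroup.of_card hcM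
  have hσinv : σ⁻¹ = σ := inv_eq_of_mul_eq_one_left hσ
  have hZp : IsPGroup 2 (Subgroup.zpowers σ) := by
    apply IsPGroup.of_card (n := 1)
    rw [Nat.card_zpowers, pow_one]
    apply orderOf_eq_prime (by rw [pow_two]; exact hσ)
    intro h
    exact hσn (h ▸ j.range.one_mem)
  have hnorm : Subgroup.zpowers σ ≤ Subgroup.normalizer (M : Set G) := by
    rw [Subgroup.zpowers_le, Subgroup.mem_normalizer_iff]
    intro g
    constructor
    · rintro ⟨⟨x, y⟩, ⟨hx, hy⟩, rfl⟩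
      exact ⟨(y, x), ⟨hy, hx⟩, (hσj x y).symm⟩
    · rintro ⟨⟨x, y⟩, ⟨hx, hy⟩, e⟩
      refine ⟨(y, x), ⟨hy, hx⟩, ?_⟩
      rw [← hσj x y, e, hσinv]
      calc σ * (σ * g * σ) * σ = (σ * σ) * g * (σ * σ) := by group
        _ = g := by rw [hσ]; simp
  have hPp : IsPGroup 2 (M ⊔ Subgroup.zpowers σ : Subgroup G) :=
    IsPGroup.to_sup_of_normal_left' hMp hZp hnorm
  refine ⟨hPp, ?_⟩
  obtain ⟨k, hk'⟩ := IsPGroup.iff_card.1 hPp
  have hlt : M < M ⊔ Subgroup.zpowers σ := by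
    apply lt_of_le_of_ne le_sup_left
    intro h
    have h1 : σ ∈ M := by
      rw [h]; exact Subgroup.mem_sup_right (Subgroup.mem_zpowers σ)
    obtain ⟨z, _, e⟩ := h1
    exact hσn ⟨z, e⟩
  have h1 : Nat.card M < Nat.card (M ⊔ Subgroup.zpowers σ : Subgroup G) := by
    exact Set.ncard_lt_ncard (s := (M : Set G)) (t := ((M ⊔ Subgroup.zpowers σ : Subgroup G) : Set G))
      (SetLike.coe_ssubset_coe.2 hlt) (Set.toFinite _)
  rw [hcM, hk'] at h1
  have h2 : 2 * padicValNat 2 (Nat.card A) < k := (Nat.pow_lt_pow_iff_right (by norm_num)).1 h1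
  have h3 : 2 ^ k ∣ Nat.card G := hk' ▸ Subgroup.card_subgroup_dvd_card _
  have h4 : k ≤ padicValNat 2 (Nat.card G) :=
    (padicValNat_dvd_iff_le (p := 2) Nat.card_pos.ne').1 h3
  apply A6_odd_of_card
  rw [hk']
  congr 1
  omega

end Cfsg.Agent.Lib.Helper90.Syl2
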