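import Cfsg.Agent.Lib.Helper90.Syl2.E3
import Cfsg.Agent.Lib.Helper49.FinSq

set_option autoImplicit false
set_option linter.unusedSectionVars false

/-! Rung E4 of ladder SYL2O (helper49). -/

namespace Cfsg.Agent.Lib.Helper90.Syl2

open Cfsg.Agent.Lib.Helper18 QuadraticMap Matrix Cfsg.Agent.Lib.Helper49

variable {F : Type*} [Field F]
variable [Fintype F]

theorem E4_hasDisc_minus (m : ℕ) (a b : F) :
    HasDisc (polarBilin (minusQF m F a b)) ((-1) ^ m * (4 * b - a ^ 2)) := by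
  have h := hasDisc_gram (minusQF m F a b)
  rw [minusQF_coe, gram_quadFormMinus_det] at h
  exact h

theorem E4_not_isSquare (h2 : (2 : F) ≠ 0) (a b : F)
    (hab : ∀ z₁ z₂ : F, z₁ ^ 2 + a * z₁ * z₂ + b * z₂ ^ 2 = 0 → z₁ = 0 ∧ z₂ = 0) :
    ¬ IsSquare (a ^ 2 - 4 * b) := by
  rintro ⟨s, hs⟩
  have h := (hab ((-a + s) / 2) 1 (by
    field_simp
    linear_combination -hs)).2
  exact one_ne_zero h

theorem E4_disc_eq (m : ℕ) (hm : 1 ≤ m) (a b : F) :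
    (-1 : F) ^ (m - 1) * (4 * b - a ^ 2) = (-1) ^ m * (a ^ 2 - 4 * b) := by
  obtain ⟨k, rfl⟩ : ∃ k, m = k + 1 := ⟨m - 1, by omega⟩
  rw [Nat.add_sub_cancel, pow_succ]
  ring

theorem iso_minus_good (h2 : (2 : F) ≠ 0) (m : ℕ) (hm : 1 ≤ m) (a b : F)
    (hab : ∀ z₁ z₂ : F, z₁ ^ 2 + a * z₁ * z₂ + b * z₂ ^ 2 = 0 → z₁ = 0 ∧ z₂ = 0)
    (h : ¬ IsSquare ((-1 : F) ^ m)) :
    Nonempty (↥(Cfsg.isometryGroup F (Cfsg.quadFormMinus (m - 1) F a b)) ≃* GI F (2 * m)) := by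
  have hD := E4_not_isSquare h2 a b hab
  have hD0 := E3_ne_zero_of_not_isSquare hD
  have h0 : ((-1 : F) ^ m) ≠ 0 := pow_ne_zero m (neg_ne_zero.2 one_ne_zero)
  obtain ⟨s, hs⟩ := isSquare_mul_of_not_isSquare h2 h hD
  have hs0 : s ≠ 0 := by
    rintro rfl
    rw [mul_zero] at hs
    exact mul_ne_zero h0 hD0 hs
  have hnd : (4 * b - a ^ 2) ≠ 0 := by
    intro h'
    apply hD0
    linear_combination -h'
  rw [← minusQF_coe]
  apply E3_iso h2 (minusQF (m - 1) F a b) (minusQF_nondegenerate (m - 1) F a b hnd)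
    (E4_hasDisc_minus (m - 1) a b) _
    (fun _ => one_ne_zero) (by simp; omega) (by simp)
    (t := s / 2 ^ m) (div_ne_zero hs0 (pow_ne_zero _ h2))
  rw [E3_prod_one, Fintype.card_fin, E4_disc_eq m hm, hs, pow_mul']
  field_simp

theorem iso_minus_bad (h2 : (2 : F) ≠ 0) (m : ℕ) (hm : 1 ≤ m) (a b : F)
    (hab : ∀ z₁ z₂ : F, z₁ ^ 2 + a * z₁ * z₂ + b * z₂ ^ 2 = 0 → z₁ = 0 ∧ z₂ = 0)
    (h : IsSquare ((-1 : F) ^ m)) {δ : F} (hδ : ¬ IsSquare δ) :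
    Nonempty (↥(Cfsg.isometryGroup F (Cfsg.quadFormMinus (m - 1) F a b)) ≃* GJ (2 * m) δ) := by
  have hD := E4_not_isSquare h2 a b hab
  have hD0 := E3_ne_zero_of_not_isSquare hD
  have hδ0 := E3_ne_zero_of_not_isSquare hδ
  have h0 : ((-1 : F) ^ m) ≠ 0 := pow_ne_zero m (neg_ne_zero.2 one_ne_zero)
  have hns : ¬ IsSquare ((-1 : F) ^ m * (a ^ 2 - 4 * b)) := by
    rw [isSquare_mul_iff_of_isSquare h h0]
    exact hD
  obtain ⟨s, hs⟩ : ∃ s, (-1 : F) ^ m * (a ^ 2 - 4 * b) = δ * s ^ 2 := by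
    rcases sq_or_nonsq h2 hδ (mul_ne_zero h0 hD0) with ⟨t, ht⟩ | h'
    · exact absurd ⟨t, by rw [ht, pow_two]⟩ hns
    · exact h'
  have hs0 : s ≠ 0 := by
    rintro rfl
    apply mul_ne_zero h0 hD0
    rw [hs]; simp
  have hnd : (4 * b - a ^ 2) ≠ 0 := by
    intro h'
    apply hD0
    linear_combination -h'
  rw [← minusQF_coe]
  apply E3_iso h2 (minusQF (m - 1) F a b) (minusQF_nondegenerate (m - 1) F a b hnd)
    (E4_hasDisc_minus (m - 1) a b) _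
    (E3_ne _ hδ0) (by simp; omega) (by simp)
    (t := s / 2 ^ m) (div_ne_zero hs0 (pow_ne_zero _ h2))
  rw [E3_prod_delta _ (by omega), Fintype.card_fin, E4_disc_eq m hm, hs, pow_mul']
  field_simp

end Cfsg.Agent.Lib.Helper90.Syl2
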