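import Cfsg.Agent.Lib.Helper90.Syl2.E2
import Cfsg.Agent.Lib.Helper90.Syl2.E4
import Cfsg.Agent.S0286
import Cfsg.Agent.S0287
import Cfsg.Agent.S0288

set_option autoImplicit false
set_option linter.unusedSectionVars false

/-! Rung E5 of ladder SYL2O (helper49). -/

namespace Cfsg.Agent.Lib.Helper90.Syl2

open Cfsg.Agent.Lib.Helper18 QuadraticMap Matrix Cfsg.Agent.Lib.Helper49

variable {F : Type*} [Field F]
variable [Fintype F]

theorem E5_odd_card (h2 : (2 : F) ≠ 0) : Odd (Fintype.card F) :=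
  Nat.odd_iff.2 (FiniteField.odd_card_of_char_ne_two (ringChar_ne_two_of_two_ne_zero h2))

theorem E5_isSquare_iff (h2 : (2 : F) ≠ 0) (m : ℕ) :
    IsSquare ((-1 : F) ^ m) ↔ (Fintype.card F % 4 = 1 ∨ m % 2 = 0) := by
  have hq := E5_odd_card h2
  rcases Nat.even_or_odd m with hm | hm
  · rw [hm.neg_one_pow]
    have : m % 2 = 0 := Nat.even_iff.1 hm
    simp [this]
  · rw [hm.neg_one_pow, FiniteField.isSquare_neg_one_iff]
    have h1 : m % 2 = 1 := Nat.odd_iff.1 hm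
    have h3 : Fintype.card F % 2 = 1 := Nat.odd_iff.1 hq
    omega

theorem E5_aniso {δ : F} (hδ : ¬ IsSquare δ) :
    ∀ z₁ z₂ : F, z₁ ^ 2 + 0 * z₁ * z₂ + (-δ) * z₂ ^ 2 = 0 → z₁ = 0 ∧ z₂ = 0 := by
  intro z₁ z₂ h
  have hz2 : z₂ = 0 := by
    by_contra hz
    apply hδ
    refine ⟨z₁ / z₂, ?_⟩
    field_simp
    linear_combination -h
  subst hz2
  refine ⟨?_, rfl⟩
  have : z₁ ^ 2 = 0 := by linear_combination h
  exact pow_eq_zero_iff (two_ne_zero) |>.1 this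

theorem E5_exists_nonsquare (h2 : (2 : F) ≠ 0) : ∃ δ : F, ¬ IsSquare δ :=
  FiniteField.exists_nonsquare (ringChar_ne_two_of_two_ne_zero h2)

theorem card_GI (h2 : (2 : F) ≠ 0) (n : ℕ) (hn : 1 ≤ n) :
    Nat.card (GI F n) = cI (Fintype.card F) n := by
  have hq := E5_odd_card h2
  rcases Nat.even_or_odd' n with ⟨m, rfl | rfl⟩
  · have hm : 1 ≤ m := by omega
    have e1 : (2 * m) % 2 ≠ 1 := by omega
    have e2 : 2 * m / 2 = m := by omega
    unfold cI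
    rw [if_neg e1, e2]
    by_cases h : IsSquare ((-1 : F) ^ m)
    · rw [if_pos ((E5_isSquare_iff h2 m).1 h)]
      obtain ⟨e⟩ := iso_plus_good h2 m hm h
      rw [← Nat.card_congr e.toEquiv, Cfsg.Agent.S0287.result rfl m hm]
      rfl
    · rw [if_neg (fun h' => h ((E5_isSquare_iff h2 m).2 h'))]
      obtain ⟨δ, hδ⟩ := E5_exists_nonsquare h2
      obtain ⟨e⟩ := iso_minus_good h2 m hm 0 (-δ) (E5_aniso hδ) h
      rw [← Nat.card_congr e.toEquiv, Cfsg.Agent.S0288.result rfl m hm 0 (-δ) (E5_aniso hδ)]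
      rfl
  · have e1 : (2 * m + 1) % 2 = 1 := by omega
    have e2 : (2 * m + 1) / 2 = m := by omega
    unfold cI
    rw [if_pos e1, e2]
    obtain ⟨e⟩ := iso_odd h2 m
    rw [← Nat.card_congr e.toEquiv, Cfsg.Agent.S0286.result rfl hq m]
    rfl

theorem card_GJ (h2 : (2 : F) ≠ 0) (n : ℕ) (hn : 2 ≤ n) (he : Even n) {δ : F}
    (hδ : ¬ IsSquare δ) : Nat.card (GJ n δ) = cJ (Fintype.card F) n := by
  obtain ⟨m, rfl⟩ : ∃ m, n = 2 * m := by
    obtain ⟨k, hk⟩ := he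
    exact ⟨k, by omega⟩
  have hm : 1 ≤ m := by omega
  have e2 : 2 * m / 2 = m := by omega
  unfold cJ
  rw [e2]
  by_cases h : IsSquare ((-1 : F) ^ m)
  · rw [if_pos ((E5_isSquare_iff h2 m).1 h)]
    obtain ⟨e⟩ := iso_minus_bad h2 m hm 0 (-δ) (E5_aniso hδ) h hδ
    rw [← Nat.card_congr e.toEquiv, Cfsg.Agent.S0288.result rfl m hm 0 (-δ) (E5_aniso hδ)]
    rfl
  · rw [if_neg (fun h' => h ((E5_isSquare_iff h2 m).2 h'))]
    obtain ⟨e⟩ := iso_plus_bad h2 m hm h hδ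
    rw [← Nat.card_congr e.toEquiv, Cfsg.Agent.S0287.result rfl m hm]
    rfl

end Cfsg.Agent.Lib.Helper90.Syl2
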