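import Cfsg.Agent.Lib.Helper90.Syl2.G0

set_option autoImplicit false
set_option linter.unusedSectionVars false

namespace Cfsg.Agent.Lib.Helper90.Syl2

open Cfsg.Agent.Lib.Helper18 QuadraticMap Matrix

variable {F : Type*} [Field F]
variable {ι κ : Type} [Fintype ι] [DecidableEq ι] [Fintype κ] [DecidableEq κ]

private theorem g1_mat_mul_inv {Q : (ι → F) → F} (x : ↥(Cfsg.isometryGroup F Q)) :
    mat x * mat x⁻¹ = 1 := by
  have : mat x * mat x⁻¹ = mat (x * x⁻¹) := by simp [mat]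
  rw [this, mul_inv_cancel]
  simp [mat]

private theorem g1_mat_inv_mul {Q : (ι → F) → F} (x : ↥(Cfsg.isometryGroup F Q)) :
    mat x⁻¹ * mat x = 1 := by
  have : mat x⁻¹ * mat x = mat (x⁻¹ * x) := by simp [mat]
  rw [this, inv_mul_cancel]
  simp [mat]

private theorem g1_mulVec (A : Matrix ι ι F) (D : Matrix κ κ F) (v : ι ⊕ κ → F) :
    fromBlocks A 0 0 D *ᵥ v = Sum.elim (A *ᵥ (v ∘ Sum.inl)) (D *ᵥ (v ∘ Sum.inr)) := by
  rw [fromBlocks_mulVec]
  simp

/-- the block diagonal isometry. -/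
private noncomputable def g1Fun (a : ι → F) (b : κ → F) (x : OO a) (y : OO b) :
    OO (Sum.elim a b) :=
  mkIso (fromBlocks (mat x) 0 0 (mat y)) (fromBlocks (mat x⁻¹) 0 0 (mat y⁻¹))
    (by rw [fromBlocks_multiply]; simp [g1_mat_mul_inv])
    (by rw [fromBlocks_multiply]; simp [g1_mat_inv_mul])
    (by
      intro v
      rw [g1_mulVec, dg_sum, dg_sum a b v]
      have h1 : (Sum.elim (mat x *ᵥ (v ∘ Sum.inl)) (mat y *ᵥ (v ∘ Sum.inr))) ∘ Sum.inl
          = act x (v ∘ Sum.inl) := rfl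
      have h2 : (Sum.elim (mat x *ᵥ (v ∘ Sum.inl)) (mat y *ᵥ (v ∘ Sum.inr))) ∘ Sum.inr
          = act y (v ∘ Sum.inr) := rfl
      rw [h1, h2, Q_act x, Q_act y])

private theorem g1_act (a : ι → F) (b : κ → F) (x : OO a) (y : OO b) (v : ι ⊕ κ → F) :
    act (g1Fun a b x y) v = Sum.elim (act x (v ∘ Sum.inl)) (act y (v ∘ Sum.inr)) := by
  unfold g1Fun
  rw [act_mkIso, g1_mulVec]
  rfl

theorem exists_blk (a : ι → F) (b : κ → F) :
    ∃ j : OO a × OO b →* OO (Sum.elim a b), IsBlk j := by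
  refine ⟨{ toFun := fun p => g1Fun a b p.1 p.2, map_one' := ?_, map_mul' := ?_ }, ?_⟩
  · apply ext_act
    intro v
    rw [g1_act]
    funext k
    rcases k with k | k <;> simp
  · intro p p'
    apply ext_act
    intro v
    rw [act_mul, g1_act, g1_act, g1_act]
    funext k
    rcases k with k | k
    · simp only [Sum.elim_inl, Prod.fst_mul, act_mul]
      rfl
    · simp only [Sum.elim_inr, Prod.snd_mul, act_mul]
      rfl
  · intro x y v
    exact g1_act a b x y v

theorem IsBlk.injective {a : ι → F} {b : κ → F} {j : OO a × OO b →* OO (Sum.elim a b)}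
    (hj : IsBlk j) : Function.Injective j := by
  rintro ⟨x, y⟩ ⟨x', y'⟩ h
  have key : ∀ v, Sum.elim (act x (v ∘ Sum.inl)) (act y (v ∘ Sum.inr)) =
      Sum.elim (act x' (v ∘ Sum.inl)) (act y' (v ∘ Sum.inr)) := by
    intro v
    rw [← hj, ← hj, h]
  have hx : x = x' := by
    apply ext_act
    intro u
    have := key (Sum.elim u 0)
    funext k
    exact congrFun this (Sum.inl k)
  have hy : y = y' := by
    apply ext_act
    intro u
    have := key (Sum.elim 0 u)
    funext k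
    exact congrFun this (Sum.inr k)
  rw [hx, hy]

end Cfsg.Agent.Lib.Helper90.Syl2
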