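import Cfsg.Agent.Lib.Helper90.Syl2.G4

set_option autoImplicit false
set_option linter.unusedSectionVars false

namespace Cfsg.Agent.Lib.Helper90.Syl2

open Cfsg.Agent.Lib.Helper18 QuadraticMap

variable {F : Type*} [Field F]
variable {ι κ : Type} [Fintype ι] [DecidableEq ι] [Fintype κ] [DecidableEq κ]
variable [Fintype F]

theorem blk_onto_left (h2 : (2 : F) ≠ 0) {a : ι → F} {b : κ → F} (ha : ∀ i, a i ≠ 0)
    (hb : ∀ i, b i ≠ 0) (hι : 2 ≤ Fintype.card ι) {j : OO a × OO b →* OO (Sum.elim a b)}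
    (hj : IsBlk j) : ∀ g, ∃ x : OO a, g * j (x, 1) ∈ commutator (OO (Sum.elim a b)) := by
  intro g
  obtain ⟨δ, hδ⟩ := FiniteField.exists_nonsquare (ringChar_ne_two h2)
  have hδ0 : δ ≠ 0 := by
    rintro rfl
    exact hδ (IsSquare.zero)
  have hc : 2 ≤ Fintype.card (ι ⊕ κ) := by
    rw [Fintype.card_sum]; omega
  obtain ⟨x, hx⟩ := sgn_prod_surjective (dg a) h2 (dg_nondeg h2 _ ha) hι hδ
    ((sgn ⇑(dg (Sum.elim a b)) 1 g)⁻¹, (sgn ⇑(dg (Sum.elim a b)) δ g)⁻¹)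
  rw [MonoidHom.prod_apply, Prod.mk.injEq] at hx
  refine ⟨x, ?_⟩
  rw [commutator_eq_ker (dg (Sum.elim a b)) h2 (dg_nondeg h2 _ (g4_elim_ne ha hb)) hc hδ,
    MonoidHom.mem_ker, MonoidHom.prod_apply, Prod.mk_eq_one, map_mul, map_mul,
    blk_sgn_left h2 ha hj one_ne_zero, blk_sgn_left h2 ha hj hδ0, hx.1, hx.2]
  simp

theorem blk_onto_right (h2 : (2 : F) ≠ 0) {a : ι → F} {b : κ → F} (ha : ∀ i, a i ≠ 0)
    (hb : ∀ i, b i ≠ 0) (hκ : 2 ≤ Fintype.card κ) {j : OO a × OO b →* OO (Sum.elim a b)}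
    (hj : IsBlk j) : ∀ g, ∃ y : OO b, g * j (1, y) ∈ commutator (OO (Sum.elim a b)) := by
  intro g
  obtain ⟨δ, hδ⟩ := FiniteField.exists_nonsquare (ringChar_ne_two h2)
  have hδ0 : δ ≠ 0 := by
    rintro rfl
    exact hδ (IsSquare.zero)
  have hc : 2 ≤ Fintype.card (ι ⊕ κ) := by
    rw [Fintype.card_sum]; omega
  obtain ⟨y, hy⟩ := sgn_prod_surjective (dg b) h2 (dg_nondeg h2 _ hb) hκ hδ
    ((sgn ⇑(dg (Sum.elim a b)) 1 g)⁻¹, (sgn ⇑(dg (Sum.elim a b)) δ g)⁻¹)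
  rw [MonoidHom.prod_apply, Prod.mk.injEq] at hy
  refine ⟨y, ?_⟩
  rw [commutator_eq_ker (dg (Sum.elim a b)) h2 (dg_nondeg h2 _ (g4_elim_ne ha hb)) hc hδ,
    MonoidHom.mem_ker, MonoidHom.prod_apply, Prod.mk_eq_one, map_mul, map_mul,
    blk_sgn_right h2 hb hj one_ne_zero, blk_sgn_right h2 hb hj hδ0, hy.1, hy.2]
  simp

end Cfsg.Agent.Lib.Helper90.Syl2
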