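import Cfsg.Agent.Lib.Helper90.Syl2.GS

set_option autoImplicit false
set_option linter.unusedSectionVars false

namespace Cfsg.Agent.Lib.Helper90.Syl2

open Cfsg.Agent.Lib.Helper18 QuadraticMap

variable {F : Type*} [Field F]
variable {ι κ : Type} [Fintype ι] [DecidableEq ι] [Fintype κ] [DecidableEq κ]
variable [Fintype F]

theorem g4_elim_ne {a : ι → F} {b : κ → F} (ha : ∀ i, a i ≠ 0) (hb : ∀ i, b i ≠ 0) :
    ∀ k, Sum.elim a b k ≠ 0 := by
  rintro (k | k)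
  · exact ha k
  · exact hb k

theorem blk_comm_imp (h2 : (2 : F) ≠ 0) {a : ι → F} {b : κ → F} (ha : ∀ i, a i ≠ 0)
    (hb : ∀ i, b i ≠ 0) (hι : 2 ≤ Fintype.card ι) {j : OO a × OO b →* OO (Sum.elim a b)}
    (hj : IsBlk j) : ∀ x : OO a, j (x, 1) ∈ commutator (OO (Sum.elim a b)) →
      x ∈ commutator (OO a) := by
  intro x hx
  obtain ⟨δ, hδ⟩ := FiniteField.exists_nonsquare (ringChar_ne_two h2)
  have hδ0 : δ ≠ 0 := by
    rintro rfl
    exact hδ (IsSquare.zero)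
  have hc : 2 ≤ Fintype.card (ι ⊕ κ) := by
    rw [Fintype.card_sum]; omega
  rw [commutator_eq_ker (dg (Sum.elim a b)) h2 (dg_nondeg h2 _ (g4_elim_ne ha hb)) hc hδ,
    MonoidHom.mem_ker, MonoidHom.prod_apply, Prod.mk_eq_one] at hx
  rw [commutator_eq_ker (dg a) h2 (dg_nondeg h2 _ ha) hι hδ,
    MonoidHom.mem_ker, MonoidHom.prod_apply, Prod.mk_eq_one]
  rw [blk_sgn_left h2 ha hj one_ne_zero, blk_sgn_left h2 ha hj hδ0] at hx
  exact hx

end Cfsg.Agent.Lib.Helper90.Syl2
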