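import Cfsg.Agent.Lib.Helper90.Syl2.G2
import Cfsg.Agent.Lib.Helper18.OrthOmega

set_option autoImplicit false
set_option linter.unusedSectionVars false

namespace Cfsg.Agent.Lib.Helper90.Syl2

open Cfsg.Agent.Lib.Helper18 QuadraticMap Matrix

variable {F : Type*} [Field F]
variable {κ : Type} [Fintype κ] [DecidableEq κ]

/-- the permutation matrix of `Sum.swap`. -/
def g5M (F : Type*) [Field F] (κ : Type) [DecidableEq κ] : Matrix (κ ⊕ κ) (κ ⊕ κ) F :=
  Matrix.of fun p q => if Sum.swap p = q then (1 : F) else 0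

theorem g5M_mulVec (v : κ ⊕ κ → F) : g5M F κ *ᵥ v = v ∘ Sum.swap := by
  funext p
  simp [g5M, Matrix.mulVec, dotProduct]

theorem g5M_mul_self : g5M F κ * g5M F κ = 1 := by
  rw [Matrix.ext_iff_mulVec]
  intro v
  rw [← Matrix.mulVec_mulVec, g5M_mulVec, g5M_mulVec, Matrix.one_mulVec]
  funext p
  simp

theorem g5_elim_swap {α : Type*} (f g : κ → α) : (Sum.elim f g) ∘ Sum.swap = Sum.elim g f := by
  funext p
  rcases p with p | p <;> rfl

/-- the swap isometry. -/
noncomputable def g5σ (a : κ → F) : OO (Sum.elim a a) :=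
  mkIso (g5M F κ) (g5M F κ) g5M_mul_self g5M_mul_self (by
    intro v
    rw [g5M_mulVec, dg_sum, dg_sum a a v]
    have h1 : (v ∘ Sum.swap) ∘ Sum.inl = v ∘ (Sum.inr : κ → κ ⊕ κ) := rfl
    have h2 : (v ∘ Sum.swap) ∘ Sum.inr = v ∘ (Sum.inl : κ → κ ⊕ κ) := rfl
    rw [h1, h2, add_comm])

theorem act_g5σ (a : κ → F) (v : κ ⊕ κ → F) : act (g5σ a) v = v ∘ Sum.swap := by
  unfold g5σ
  rw [act_mkIso, g5M_mulVec]

theorem act_g5σ_elim (a : κ → F) (f g : κ → F) : act (g5σ a) (Sum.elim f g) = Sum.elim g f := by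
  rw [act_g5σ, g5_elim_swap]

theorem g5σ_mul_self (a : κ → F) : g5σ a * g5σ a = 1 := by
  apply ext_act
  intro v
  rw [act_mul, act_g5σ, act_g5σ, act_one]
  funext p
  simp

/-- the orthogonal family `e_k - e_k'`, `e_k + e_k'`. -/
def g5b (F : Type*) [Field F] {κ : Type} [DecidableEq κ] : κ ⊕ κ → (κ ⊕ κ → F)
  | Sum.inl k => Sum.elim (Pi.single k 1) (Pi.single k (-1))
  | Sum.inr k => Sum.elim (Pi.single k 1) (Pi.single k 1)

theorem g5_Q (a : κ → F) (p : κ ⊕ κ) : dg (Sum.elim a a) (g5b F p) = 2 * Sum.elim a a p := by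
  rcases p with k | k
  · rw [dg_sum]
    show dg a (Pi.single k 1) + dg a (Pi.single k (-1)) = 2 * a k
    rw [dg_single, dg_single]
    ring
  · rw [dg_sum]
    show dg a (Pi.single k 1) + dg a (Pi.single k 1) = 2 * a k
    rw [dg_single]
    ring

theorem g5_single_neg (k l : κ) : (Pi.single k (-1) : κ → F) l = -(Pi.single k 1 : κ → F) l := by
  rw [Pi.single_neg]
  rfl

theorem g5_orth (a : κ → F) (p q : κ ⊕ κ) (hpq : p ≠ q) :
    polar ⇑(dg (Sum.elim a a)) (g5b F p) (g5b F q) = 0 := by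
  rw [polar_dg_sum]
  rcases p with k | k <;> rcases q with l | l
  · show polar ⇑(dg a) (Pi.single k 1) (Pi.single l 1) +
      polar ⇑(dg a) (Pi.single k (-1)) (Pi.single l (-1)) = 0
    have hkl : k ≠ l := fun h => hpq (by rw [h])
    rw [polar_dg_single, polar_dg_single, Pi.single_eq_of_ne hkl, Pi.single_eq_of_ne hkl]
    ring
  · show polar ⇑(dg a) (Pi.single k 1) (Pi.single l 1) +
      polar ⇑(dg a) (Pi.single k (-1)) (Pi.single l 1) = 0
    rw [polar_dg_single, polar_dg_single]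
    ring
  · show polar ⇑(dg a) (Pi.single k 1) (Pi.single l 1) +
      polar ⇑(dg a) (Pi.single k 1) (Pi.single l (-1)) = 0
    rw [polar_dg_single, polar_dg_single, g5_single_neg]
    ring
  · show polar ⇑(dg a) (Pi.single k 1) (Pi.single l 1) +
      polar ⇑(dg a) (Pi.single k 1) (Pi.single l 1) = 0
    have hkl : k ≠ l := fun h => hpq (by rw [h])
    rw [polar_dg_single, Pi.single_eq_of_ne hkl]
    ring

theorem g5_inl (h2 : (2 : F) ≠ 0) (k : κ) :
    (Pi.single (Sum.inl k) 1 : κ ⊕ κ → F) = (2 : F)⁻¹ • (g5b F (Sum.inr k) + g5b F (Sum.inl k)) := by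
  funext p
  rcases p with l | l
  · show (Pi.single (Sum.inl k) 1 : κ ⊕ κ → F) (Sum.inl l) =
      (2 : F)⁻¹ * ((Pi.single k 1 : κ → F) l + (Pi.single k 1 : κ → F) l)
    by_cases h : l = k
    · subst h
      simp only [Pi.single_eq_same]
      field_simp
      norm_num
    · rw [Pi.single_eq_of_ne h, Pi.single_eq_of_ne (fun h' => h (Sum.inl_injective h'))]
      ring
  · show (Pi.single (Sum.inl k) 1 : κ ⊕ κ → F) (Sum.inr l) =
      (2 : F)⁻¹ * ((Pi.single k 1 : κ → F) l + (Pi.single k (-1) : κ → F) l)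
    rw [g5_single_neg, Pi.single_eq_of_ne (by simp)]
    ring

theorem g5_inr (h2 : (2 : F) ≠ 0) (k : κ) :
    (Pi.single (Sum.inr k) 1 : κ ⊕ κ → F) = (2 : F)⁻¹ • (g5b F (Sum.inr k) - g5b F (Sum.inl k)) := by
  funext p
  rcases p with l | l
  · show (Pi.single (Sum.inr k) 1 : κ ⊕ κ → F) (Sum.inl l) =
      (2 : F)⁻¹ * ((Pi.single k 1 : κ → F) l - (Pi.single k 1 : κ → F) l)
    rw [Pi.single_eq_of_ne (by simp)]
    ring
  · show (Pi.single (Sum.inr k) 1 : κ ⊕ κ → F) (Sum.inr l) =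
      (2 : F)⁻¹ * ((Pi.single k 1 : κ → F) l - (Pi.single k (-1) : κ → F) l)
    rw [g5_single_neg]
    by_cases h : l = k
    · subst h
      simp only [Pi.single_eq_same]
      field_simp
      norm_num
    · rw [Pi.single_eq_of_ne h, Pi.single_eq_of_ne (fun h' => h (Sum.inr_injective h'))]
      ring

theorem g5_act_inl (a : κ → F) (k : κ) : act (g5σ a) (g5b F (Sum.inl k)) = -g5b F (Sum.inl k) := by
  show act (g5σ a) (Sum.elim (Pi.single k 1) (Pi.single k (-1))) = _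
  rw [act_g5σ_elim]
  funext p
  rcases p with l | l
  · show (Pi.single k (-1) : κ → F) l = -(Pi.single k 1 : κ → F) l
    exact g5_single_neg k l
  · show (Pi.single k 1 : κ → F) l = -(Pi.single k (-1) : κ → F) l
    rw [g5_single_neg, neg_neg]

theorem g5_act_inr (a : κ → F) (k : κ) : act (g5σ a) (g5b F (Sum.inr k)) = g5b F (Sum.inr k) := by
  show act (g5σ a) (Sum.elim (Pi.single k 1) (Pi.single k 1)) = _
  rw [act_g5σ_elim]
  rfl

theorem g5_ext {Q : (κ ⊕ κ → F) → F} (h2 : (2 : F) ≠ 0) {g h : ↥(Cfsg.isometryGroup F Q)}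
    (hb : ∀ p, act g (g5b F p) = act h (g5b F p)) : g = h := by
  apply mat_injective
  ext p q
  have e : ∀ (x : ↥(Cfsg.isometryGroup F Q)), mat x p q = act x (Pi.single q 1) p := by
    intro x
    rw [act_def, Matrix.mulVec_single_one]
    rfl
  rw [e, e]
  have e2 : act g (Pi.single q 1) = act h (Pi.single q 1) := by
    rcases q with k | k
    · rw [g5_inl h2, act_smul, act_smul, act_add, act_add, hb, hb]
    · rw [g5_inr h2, act_smul, act_smul, act_sub, act_sub, hb, hb]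
  rw [e2]

variable [Fintype F]

theorem g5_sgn (h2 : (2 : F) ≠ 0) [Nonempty κ] (a : κ → F) (ha : ∀ i, a i = 1)
    (he : Even (Fintype.card κ)) (c : F) : sgn ⇑(dg (Sum.elim a a)) c (g5σ a) = 1 := by
  have hne : ∀ p, dg (Sum.elim a a) (g5b F p) ≠ 0 := by
    intro p
    rw [g5_Q]
    rcases p with k | k <;> simpa [ha k] using h2
  obtain ⟨g, hg1, hg2, hg3⟩ := exists_diag_iso (dg (Sum.elim a a)) (g5b F) (g5_orth a) hne
    (Finset.univ.map ⟨(Sum.inl : κ → κ ⊕ κ), Sum.inl_injective⟩)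
  have hgσ : g = g5σ a := by
    apply g5_ext h2
    intro p
    rcases p with k | k
    · rw [g5_act_inl, hg1 _ (by simp)]
    · rw [g5_act_inr, hg2 _ (by simp)]
  rw [← hgσ, hg3, Finset.prod_map]
  obtain ⟨k₀⟩ := (inferInstance : Nonempty κ)
  have hconst : ∀ k : κ, sgn ⇑(dg (Sum.elim a a)) c (refl (dg (Sum.elim a a)) (g5b F (Sum.inl k))) =
      sgn ⇑(dg (Sum.elim a a)) c (refl (dg (Sum.elim a a)) (g5b F (Sum.inl k₀))) := by
    intro k
    obtain ⟨x, hx⟩ := refl_conj_of_sq (dg (Sum.elim a a)) h2 (hne (Sum.inl k₀)) (s := 1) one_ne_zero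
      (w := g5b F (Sum.inl k)) (by
        rw [g5_Q, g5_Q]
        simp [ha k, ha k₀])
    rw [hx, map_mul, map_mul, map_inv, mul_comm (sgn _ c x), mul_inv_cancel_right]
  have hprod : ∏ x : κ, sgn ⇑(dg (Sum.elim a a)) c
      (refl (dg (Sum.elim a a)) (g5b F ((⟨Sum.inl, Sum.inl_injective⟩ : κ ↪ κ ⊕ κ) x))) =
      ∏ _x : κ, sgn ⇑(dg (Sum.elim a a)) c (refl (dg (Sum.elim a a)) (g5b F (Sum.inl k₀))) :=
    Finset.prod_congr rfl (fun k _ => hconst k)
  rw [hprod, Finset.prod_const, Finset.card_univ]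
  obtain ⟨m, hm⟩ := he
  rw [hm, ← two_mul, pow_mul, Int.units_sq, one_pow]

theorem exists_swap (h2 : (2 : F) ≠ 0) [Nonempty κ] {a : κ → F} (ha : ∀ i, a i ≠ 0)
    {j : OO a × OO a →* OO (Sum.elim a a)} (hj : IsBlk j) :
    ∃ σ : OO (Sum.elim a a), σ * σ = 1 ∧ (∀ x y, σ * j (x, y) * σ⁻¹ = j (y, x)) ∧ σ ∉ j.range ∧
      ((∀ i, a i = 1) → Even (Fintype.card κ) → σ ∈ commutator (OO (Sum.elim a a))) := by
  refine ⟨g5σ a, g5σ_mul_self a, ?_, ?_, ?_⟩
  · intro x y
    rw [mul_inv_eq_iff_eq_mul]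
    apply ext_act
    intro v
    rw [act_mul, act_mul, hj, hj, act_g5σ_elim, act_g5σ]
    rfl
  · rintro ⟨⟨x, y⟩, hxy⟩
    obtain ⟨k⟩ := (inferInstance : Nonempty κ)
    have h1 := congrArg (fun g => act g (Sum.elim (Pi.single k 1) 0) (Sum.inr k)) hxy
    have h3 : act y ((Sum.elim (Pi.single k (1 : F)) (0 : κ → F)) ∘ Sum.inr) = 0 := by
      show act y 0 = 0
      rw [act_def, Matrix.mulVec_zero]
    have h4 : act (j (x, y)) (Sum.elim (Pi.single k 1) 0) (Sum.inr k) =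
        act (g5σ a) (Sum.elim (Pi.single k 1) 0) (Sum.inr k) := h1
    rw [hj, act_g5σ_elim, h3] at h4
    simp at h4
  · intro h1 he
    obtain ⟨δ, hδ⟩ := FiniteField.exists_nonsquare (ringChar_ne_two h2)
    have hn : 2 ≤ Fintype.card (κ ⊕ κ) := by
      rw [Fintype.card_sum]
      have : 0 < Fintype.card κ := Fintype.card_pos
      omega
    have hnd : (polarBilin (dg (Sum.elim a a))).Nondegenerate := by
      apply dg_nondeg h2
      intro p
      rcases p with k | k <;> exact ha k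
    rw [commutator_eq_ker (dg (Sum.elim a a)) h2 hnd hn hδ, MonoidHom.mem_ker, MonoidHom.prod_apply,
      g5_sgn h2 a h1 he, g5_sgn h2 a h1 he]
    rfl

end Cfsg.Agent.Lib.Helper90.Syl2
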