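import Cfsg.Agent.Lib.Helper90.Syl2.G2
import Cfsg.Agent.Lib.Helper18.OrthSign

set_option autoImplicit false
set_option linter.unusedSectionVars false

namespace Cfsg.Agent.Lib.Helper90.Syl2

open Cfsg.Agent.Lib.Helper18 QuadraticMap Matrix

variable {F : Type*} [Field F]
variable {ι : Type} [Fintype ι] [DecidableEq ι]

theorem card_unary (h2 : (2 : F) ≠ 0) (a : ι → F) (ha : ∀ i, a i ≠ 0)
    (hι : Fintype.card ι = 1) : Nat.card (OO a) = 2 := by
  obtain ⟨i0, hi0⟩ := Fintype.card_eq_one_iff.mp hι
  have hv : ∀ v : ι → F, v = Pi.single i0 (v i0) := by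
    intro v
    funext k
    rw [hi0 k]
    simp
  rw [Nat.card_eq_two_iff]
  refine ⟨1, negIso (dg a), ?_, ?_⟩
  · intro h
    have h1 := congrArg (fun g => act g (Pi.single i0 (1 : F)) i0) h
    simp only [act_one, act_negIso, Pi.neg_apply, Pi.single_eq_same] at h1
    apply h2
    linear_combination h1
  · rw [Set.eq_univ_iff_forall]
    intro g
    set w := act g (Pi.single i0 (1 : F)) with hw
    have hQ : dg a w = dg a (Pi.single i0 (1 : F)) := Q_act g _
    rw [hv w, dg_single, dg_single] at hQ
    have hc : (w i0 - 1) * (w i0 + 1) = 0 := by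
      have := ha i0
      have h3 : a i0 * ((w i0 - 1) * (w i0 + 1)) = 0 := by linear_combination hQ
      exact (mul_eq_zero.mp h3).resolve_left this
    have hact : ∀ v, act g v = (v i0) • w := by
      intro v
      conv_lhs => rw [hv v]
      have : (Pi.single i0 (v i0) : ι → F) = (v i0) • Pi.single i0 (1 : F) := by
        funext k
        rw [hi0 k]
        simp
      rw [this, act_smul]
    rcases mul_eq_zero.mp hc with h | h
    · left
      apply ext_act
      intro v
      rw [hact, act_one]
      funext k
      rw [hi0 k]
      have : w i0 = 1 := by linear_combination h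
      simp [this]
    · right
      rw [Set.mem_singleton_iff]
      apply ext_act
      intro v
      rw [hact, act_negIso]
      funext k
      rw [hi0 k]
      have : w i0 = -1 := by linear_combination h
      simp [this]

end Cfsg.Agent.Lib.Helper90.Syl2
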