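import Cfsg.Agent.Lib.Helper90.Syl2.G2

set_option autoImplicit false
set_option linter.unusedSectionVars false

namespace Cfsg.Agent.Lib.Helper90.Syl2

open Cfsg.Agent.Lib.Helper18 QuadraticMap Matrix

variable {F : Type*} [Field F]
variable {ι : Type} [Fintype ι] [DecidableEq ι]

private theorem g7a_mat_mul {Q : (ι → F) → F} (x y : ↥(Cfsg.isometryGroup F Q)) :
    mat (x * y) = mat x * mat y := by simp [mat]

private theorem g7a_mat_one {Q : (ι → F) → F} : mat (1 : ↥(Cfsg.isometryGroup F Q)) = 1 := by
  simp [mat]

/-- the subgroup of isometries of determinant one. -/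
private def g7aS (Q : (ι → F) → F) : Subgroup ↥(Cfsg.isometryGroup F Q) where
  carrier := {g | (mat g).det = 1}
  one_mem' := by simp [g7a_mat_one]
  mul_mem' := by
    intro x y hx hy
    simp only [Set.mem_setOf_eq] at *
    rw [g7a_mat_mul, det_mul, hx, hy, one_mul]
  inv_mem' := by
    intro x hx
    simp only [Set.mem_setOf_eq] at *
    have h : (mat (x⁻¹ * x)).det = 1 := by rw [inv_mul_cancel, g7a_mat_one, det_one]
    rw [g7a_mat_mul, det_mul, hx, mul_one] at h
    exact h

theorem binary_struct (h2 : (2 : F) ≠ 0) (a : ι → F) (ha : ∀ i, a i ≠ 0)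
    (hι : Fintype.card ι = 2) :
    ∃ S : Subgroup (OO a), S.index = 2 ∧ ∀ x, x ∉ S → x * x = 1 := by
  let e : ι ≃ Fin 2 := Fintype.equivFinOfCardEq hι
  set i0 := e.symm 0 with hi0
  set i1 := e.symm 1 with hi1
  have hne : i0 ≠ i1 := by
    intro h
    have := e.symm.injective h
    exact absurd this (by decide)
  have huniv : (Finset.univ : Finset ι) = {i0, i1} := by
    ext k
    simp only [Finset.mem_univ, Finset.mem_insert, Finset.mem_singleton, true_iff]
    have hk : k = e.symm (e k) := (e.symm_apply_apply k).symm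
    rcases (by
      have := (e k).isLt
      rcases h : (e k) with ⟨n, hn⟩
      interval_cases n
      · left; rfl
      · right; rfl : e k = 0 ∨ e k = 1) with h | h
    · left; rw [hk, h]
    · right; rw [hk, h]
  have hsum : ∀ f : ι → F, ∑ k, f k = f i0 + f i1 := by
    intro f
    rw [huniv, Finset.sum_pair hne]
  have hdet : ∀ M : Matrix ι ι F, M.det = M i0 i0 * M i1 i1 - M i0 i1 * M i1 i0 := by
    intro M
    rw [← det_submatrix_equiv_self e.symm M, det_fin_two]
    rfl
  have hcol : ∀ (g : OO a) (i k : ι), act g (Pi.single i (1 : F)) k = mat g k i := by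
    intro g i k
    rw [act_def]
    simp
  -- the three equations
  have E1 : ∀ g : OO a, a i0 * (mat g i0 i0 * mat g i0 i0) + a i1 * (mat g i1 i0 * mat g i1 i0)
      = a i0 := by
    intro g
    have h := Q_act g (Pi.single i0 (1 : F))
    rw [dg_single, dg_apply, hsum, hcol, hcol] at h
    linear_combination h
  have E2 : ∀ g : OO a, a i0 * (mat g i0 i1 * mat g i0 i1) + a i1 * (mat g i1 i1 * mat g i1 i1)
      = a i1 := by
    intro g
    have h := Q_act g (Pi.single i1 (1 : F))
    rw [dg_single, dg_apply, hsum, hcol, hcol] at h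
    linear_combination h
  have E3 : ∀ g : OO a, a i0 * (mat g i0 i0 * mat g i0 i1) + a i1 * (mat g i1 i0 * mat g i1 i1)
      = 0 := by
    intro g
    have h := polar_act g (Pi.single i0 (1 : F)) (Pi.single i1 (1 : F))
    rw [polar_dg_single, polar_dg, hsum, hcol, hcol, hcol, hcol,
      Pi.single_eq_of_ne hne] at h
    have h3 : 2 * (a i0 * (mat g i0 i0 * mat g i0 i1) + a i1 * (mat g i1 i0 * mat g i1 i1)) = 0 := by
      linear_combination h
    exact (mul_eq_zero.mp h3).resolve_left h2
  have hD : ∀ g : OO a, (mat g).det = 1 ∨ (mat g).det = -1 := by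
    intro g
    have h : a i0 * a i1 * (((mat g).det - 1) * ((mat g).det + 1)) = 0 := by
      rw [hdet]
      linear_combination (a i0 * (mat g i0 i1 * mat g i0 i1) + a i1 * (mat g i1 i1 * mat g i1 i1)) * E1 g
        + a i0 * E2 g
        - (a i0 * (mat g i0 i0 * mat g i0 i1) + a i1 * (mat g i1 i0 * mat g i1 i1)) * E3 g
    have h' := (mul_eq_zero.mp h).resolve_left (mul_ne_zero (ha i0) (ha i1))
    rcases mul_eq_zero.mp h' with h | h
    · left; linear_combination h
    · right; linear_combination h
  refine ⟨g7aS _, ?_, ?_⟩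
  · rw [Subgroup.index_eq_two_iff]
    refine ⟨refl (dg a) (Pi.single i0 1), fun b => ?_⟩
    have hr : (mat (refl (dg a) (Pi.single i0 (1 : F)))).det = -1 := by
      have hm : mat (refl (dg a) (Pi.single i0 (1 : F))) =
          Cfsg.reflectionMatrix ⇑(dg a) (Pi.single i0 1) :=
        (eq_refl_iff (dg a) _ _).mp rfl
      rw [hm]
      apply det_reflectionMatrix
      rw [dg_single]
      simpa using ha i0
    have hm1 : (b * refl (dg a) (Pi.single i0 1) ∈ g7aS ⇑(dg a)) ↔ (mat b).det = -1 := by
      change (mat (b * refl (dg a) (Pi.single i0 1))).det = 1 ↔ _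
      rw [g7a_mat_mul, det_mul, hr]
      constructor
      · intro h; linear_combination -h
      · intro h; rw [h]; ring
    have hm2 : (b ∈ g7aS ⇑(dg a)) ↔ (mat b).det = 1 := Iff.rfl
    rw [hm1, hm2]
    have hne1 : (1 : F) ≠ -1 := by
      intro h
      apply h2
      linear_combination h
    rcases hD b with h | h
    · right
      exact ⟨h, by rw [h]; exact hne1⟩
    · left
      exact ⟨h, by rw [h]; exact hne1.symm⟩
  · intro x hx
    have hx1 : (mat x).det = -1 := by
      rcases hD x with h | h
      · exact absurd h hx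
      · exact h
    rw [hdet] at hx1
    have hs : mat x i1 i1 = - mat x i0 i0 := by
      have h : a i0 * (mat x i1 i1 + mat x i0 i0) = 0 := by
        linear_combination (-(mat x i1 i1)) * E1 x + a i0 * mat x i0 i0 * hx1 + mat x i1 i0 * E3 x
      have := (mul_eq_zero.mp h).resolve_left (ha i0)
      linear_combination this
    apply mat_injective
    rw [g7a_mat_mul, g7a_mat_one]
    ext i k
    rw [Matrix.mul_apply, hsum]
    have hi : i = i0 ∨ i = i1 := by
      have := Finset.mem_univ i
      rw [huniv] at this
      simpa using this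
    have hk : k = i0 ∨ k = i1 := by
      have := Finset.mem_univ k
      rw [huniv] at this
      simpa using this
    rcases hi with rfl | rfl <;> rcases hk with rfl | rfl
    · rw [Matrix.one_apply_eq]
      rw [hs] at hx1
      linear_combination -hx1
    · rw [Matrix.one_apply_ne hne, hs]
      ring
    · rw [Matrix.one_apply_ne hne.symm, hs]
      ring
    · rw [Matrix.one_apply_eq]
      rw [hs] at hx1 ⊢
      linear_combination -hx1

end Cfsg.Agent.Lib.Helper90.Syl2
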