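import Cfsg.Agent.Lib.Helper90.Syl2.Defs

/-!
Ladder SYL2O, rung G7B: generalized dihedral groups are `NiceT`.
-/

set_option autoImplicit false

namespace Cfsg.Agent.Lib.Helper90.Syl2

open scoped commutatorElement

theorem g7b_inv {L : Type*} [Group L] (S : Subgroup L)
    (h : ∀ x, x ∉ S → x * x = 1) : ∀ g, g ∉ S → ∀ s ∈ S, g * s * g⁻¹ = s⁻¹ := by
  intro g hg s hs
  have h1 : g * s ∉ S := fun hc => hg (by simpa using S.mul_mem hc (S.inv_mem hs))
  have h2 := h _ h1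
  have h3 := h _ hg
  have h4 : g⁻¹ = g := inv_eq_of_mul_eq_one_left h3
  rw [h4]
  exact eq_inv_of_mul_eq_one_left (by simpa [mul_assoc] using h2)

theorem g7b_comm {L : Type*} [Group L] (S : Subgroup L)
    (h : ∀ x, x ∉ S → x * x = 1) {r : L} (hr : r ∉ S) :
    ∀ s ∈ S, ∀ t ∈ S, s * t = t * s := by
  intro s hs t ht
  have h1 := g7b_inv S h r hr (s * t) (S.mul_mem hs ht)
  have h2 := g7b_inv S h r hr s hs
  have h3 := g7b_inv S h r hr t ht
  have h4 : r * (s * t) * r⁻¹ = (r * s * r⁻¹) * (r * t * r⁻¹) := by group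
  rw [h4, h2, h3, ← mul_inv_rev] at h1
  exact (inv_injective h1).symm

theorem g7b_commutator {L : Type*} [Group L] (S : Subgroup L) (hS : S.index = 2)
    (h : ∀ x, x ∉ S → x * x = 1) (g₁ g₂ : L) : ∃ s ∈ S, ⁅g₁, g₂⁆ = s * s := by
  by_cases h1 : g₁ ∈ S
  · by_cases h2 : g₂ ∈ S
    · by_cases hr : ∃ r, r ∉ S
      · obtain ⟨r, hr⟩ := hr
        refine ⟨1, S.one_mem, ?_⟩
        rw [commutatorElement_def, g7b_comm S h hr g₁ h1 g₂ h2]
        group
      · push Not at hr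
        have : S = ⊤ := by
          ext x; simp [hr x]
        rw [this, Subgroup.index_top] at hS
        omega
    · refine ⟨g₁, h1, ?_⟩
      have := g7b_inv S h g₂ h2 g₁⁻¹ (S.inv_mem h1)
      rw [inv_inv] at this
      rw [commutatorElement_def, mul_assoc, mul_assoc, ← mul_assoc g₂, this]
  · by_cases h2 : g₂ ∈ S
    · refine ⟨g₂⁻¹, S.inv_mem h2, ?_⟩
      rw [commutatorElement_def, g7b_inv S h g₁ h1 g₂ h2]
    · have hs : g₁⁻¹ * g₂ ∈ S := by
        rw [Subgroup.mul_mem_iff_of_index_two hS]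
        simp [h1, h2]
      refine ⟨g₁⁻¹ * g₂, hs, ?_⟩
      have e1 := g7b_inv S h g₁ h1 _ (S.inv_mem hs)
      have e2 := g7b_inv S h g₁ h1 _ hs
      rw [inv_inv] at e1
      have e3 : ⁅g₁, g₂⁆ = g₁ * ((g₁ * (g₁⁻¹ * g₂) * g₁⁻¹) * (g₁⁻¹ * g₂)⁻¹) * g₁⁻¹ := by
        rw [commutatorElement_def]; group
      rw [e3, e2]
      have e4 : g₁ * ((g₁⁻¹ * g₂)⁻¹ * (g₁⁻¹ * g₂)⁻¹) * g₁⁻¹
          = (g₁ * (g₁⁻¹ * g₂)⁻¹ * g₁⁻¹) * (g₁ * (g₁⁻¹ * g₂)⁻¹ * g₁⁻¹) := by group
      rw [e4, e1]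

/-- the subgroup of squares of `S`. -/
def g7bSq {L : Type*} [Group L] (S : Subgroup L) (hc : ∀ s ∈ S, ∀ t ∈ S, s * t = t * s) :
    Subgroup L where
  carrier := {g | ∃ s ∈ S, g = s * s}
  mul_mem' := by
    rintro _ _ ⟨s, hs, rfl⟩ ⟨t, ht, rfl⟩
    refine ⟨s * t, S.mul_mem hs ht, ?_⟩
    rw [mul_assoc s t, ← mul_assoc t s, hc t ht s hs]
    simp only [mul_assoc]
  one_mem' := ⟨1, S.one_mem, by simp⟩
  inv_mem' := by
    rintro _ ⟨s, hs, rfl⟩
    exact ⟨s⁻¹, S.inv_mem hs, by simp⟩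

theorem niceT_of_dihedral {L : Type*} [Group L] [Finite L] (S : Subgroup L) (hS : S.index = 2)
    (h : ∀ x, x ∉ S → x * x = 1) : NiceT L := by
  classical
  have : Fact (Nat.Prime 2) := ⟨Nat.prime_two⟩
  obtain ⟨P⟩ : Nonempty (Sylow 2 L) := inferInstance
  have hodd : Odd (P : Subgroup L).index := by
    rw [← Nat.not_even_iff_odd, even_iff_two_dvd]
    exact P.not_dvd_index
  have hnS : ¬ (P : Subgroup L) ≤ S := by
    intro hle
    have := Subgroup.index_dvd_of_le hle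
    rw [hS] at this
    exact (Nat.not_even_iff_odd.2 hodd) (even_iff_two_dvd.2 this)
  obtain ⟨r, hrP, hrS⟩ := SetLike.not_le_iff_exists.1 hnS
  have hinv := g7b_inv S h
  have hcomm := g7b_comm S h hrS
  have hsq : ∀ s ∈ S, s ∈ (P : Subgroup L) → s * s ∈ ⁅(P : Subgroup L), (P : Subgroup L)⁆ := by
    intro s hs hsP
    have e : ⁅s, r⁆ = s * s := by
      have := hinv r hrS s⁻¹ (S.inv_mem hs)
      rw [inv_inv] at this
      rw [commutatorElement_def, mul_assoc, mul_assoc, ← mul_assoc r, this]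
    rw [← e]
    exact Subgroup.commutator_mem_commutator hsP hrP
  refine ⟨P, P.isPGroup', hodd, ?_, ?_⟩
  · intro x hx
    rw [pow_two]
    by_cases hxS : x ∈ S
    · exact hsq x hxS hx
    · rw [h x hxS]
      exact Subgroup.one_mem _
  · intro x hx hxc
    have hle : commutator L ≤ g7bSq S hcomm := by
      rw [commutator_def, Subgroup.commutator_le]
      intro g₁ _ g₂ _
      exact g7b_commutator S hS h g₁ g₂
    obtain ⟨s, hs, rfl⟩ := hle hxc
    apply hsq s hs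
    -- `zpowers s` is a normal 2-subgroup
    have hn : (Subgroup.zpowers s).Normal := by
      constructor
      intro n hn g
      have hnS : n ∈ S := (Subgroup.zpowers_le.2 hs) hn
      by_cases hg : g ∈ S
      · have : g * n * g⁻¹ = n := by rw [hcomm g hg n hnS]; group
        rw [this]; exact hn
      · rw [hinv g hg n hnS]
        exact Subgroup.inv_mem _ hn
    have hp : IsPGroup 2 (Subgroup.zpowers s) := by
      obtain ⟨k, hk⟩ := (P.isPGroup' ⟨s * s, hx⟩)
      have hk' : (s * s) ^ 2 ^ k = 1 := by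
        simpa using congrArg Subtype.val hk
      have hs2 : s ^ 2 ^ (k + 1) = 1 := by
        rw [pow_succ', pow_mul, pow_two]; exact hk'
      rintro ⟨y, hy⟩
      obtain ⟨m, rfl⟩ := Subgroup.mem_zpowers_iff.1 hy
      refine ⟨k + 1, ?_⟩
      apply Subtype.ext
      simp only [Subgroup.coe_pow, Subgroup.coe_one]
      rw [← zpow_natCast, ← zpow_mul, mul_comm, zpow_mul, zpow_natCast, hs2, one_zpow]
    have hsup : IsPGroup 2 ((P : Subgroup L) ⊔ Subgroup.zpowers s : Subgroup L) :=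
      IsPGroup.to_sup_of_normal_right P.isPGroup' hp
    have := P.is_maximal' hsup le_sup_left
    rw [← this]
    exact (le_sup_right : Subgroup.zpowers s ≤ _) (Subgroup.mem_zpowers s)

end Cfsg.Agent.Lib.Helper90.Syl2
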