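import Cfsg.Agent.Lib.Helper90.Syl2.Defs

/-!
Ladder SYL2O, rung N1: 2-adic valuations of the orders of the orthogonal groups.
-/

set_option autoImplicit false
set_option linter.unusedVariables false

namespace Cfsg.Agent.Lib.Helper90.Syl2

open Nat

theorem n1_v2_pow (q : ℕ) (hq : Odd q) (k : ℕ) : padicValNat 2 (q ^ k) = 0 := by
  apply padicValNat.eq_zero_of_not_dvd
  intro h
  have := (Nat.prime_two.dvd_of_dvd_pow h)
  exact (Nat.not_even_iff_odd.2 hq) (even_iff_two_dvd.2 this)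

theorem n1_v2_of_mod4 {n : ℕ} (h : n % 4 = 2) : padicValNat 2 n = 1 := by
  obtain ⟨k, rfl⟩ : ∃ k, n = 2 * (2 * k + 1) := ⟨n / 4, by omega⟩
  rw [padicValNat.mul (by norm_num) (by omega), padicValNat_self,
    padicValNat.eq_zero_of_not_dvd (by omega)]

theorem n1_one_lt_pow (q : ℕ) (hq1 : 1 < q) {k : ℕ} (hk : 1 ≤ k) : 1 < q ^ k :=
  Nat.one_lt_pow (by omega) hq1

/-- lifting the exponent -/
theorem n1_lte (q : ℕ) (hq : Odd q) (hq1 : 1 < q) (i : ℕ) (hi : 1 ≤ i) :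
    padicValNat 2 (q ^ (2 * i) - 1) = padicValNat 2 (q ^ 2 - 1) + padicValNat 2 i := by
  have hnd : ¬ 2 ∣ q := fun h => (Nat.not_even_iff_odd.2 hq) (even_iff_two_dvd.2 h)
  have hd : 2 ∣ q - 1 := by
    obtain ⟨k, rfl⟩ := hq
    exact ⟨k, by omega⟩
  have h1 := padicValNat.pow_two_sub_pow (x := q) (y := 1) hq1 hd hnd (n := 2 * i) (by omega)
    (even_two_mul i)
  have h2 := padicValNat.pow_two_sub_pow (x := q) (y := 1) hq1 hd hnd (n := 2) (by omega)
    even_two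
  rw [one_pow] at h1 h2
  rw [padicValNat.mul (by norm_num) (by omega), padicValNat_self] at h1
  rw [padicValNat_self] at h2
  omega

theorem n1_prod (q : ℕ) (hq : Odd q) (hq1 : 1 < q) (k : ℕ) :
    (∏ i ∈ Finset.range k, (q ^ (2 * (i + 1)) - 1)) ≠ 0 ∧
    padicValNat 2 (∏ i ∈ Finset.range k, (q ^ (2 * (i + 1)) - 1)) =
      k * padicValNat 2 (q ^ 2 - 1) + padicValNat 2 k.factorial := by
  induction k with
  | zero => simp
  | succ k ih =>
    have h0 : q ^ (2 * (k + 1)) - 1 ≠ 0 := by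
      have := n1_one_lt_pow q hq1 (k := 2 * (k + 1)) (by omega)
      omega
    rw [Finset.prod_range_succ]
    refine ⟨mul_ne_zero ih.1 h0, ?_⟩
    rw [padicValNat.mul ih.1 h0, ih.2, n1_lte q hq hq1 (k + 1) (by omega), Nat.factorial_succ,
      padicValNat.mul (by omega) (Nat.factorial_ne_zero k)]
    ring

theorem n1_pow_mod4_one (q m : ℕ) (hq : Odd q) (h : q % 4 = 1 ∨ m % 2 = 0) : q ^ m % 4 = 1 := by
  rcases h with h | h
  · simp [Nat.pow_mod, h]
  · obtain ⟨k, rfl⟩ : ∃ k, m = 2 * k := ⟨m / 2, by omega⟩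
    have h2 : q ^ 2 % 4 = 1 := by
      obtain ⟨j, rfl⟩ := hq
      have : (2 * j + 1) ^ 2 = 4 * (j * j + j) + 1 := by ring
      omega
    simp [pow_mul, Nat.pow_mod, h2]

theorem n1_pow_mod4_three (q m : ℕ) (hq : Odd q) (h : ¬ (q % 4 = 1 ∨ m % 2 = 0)) :
    q ^ m % 4 = 3 := by
  push Not at h
  obtain ⟨h1, h2⟩ := h
  have hq3 : q % 4 = 3 := by
    obtain ⟨j, rfl⟩ := hq
    omega
  obtain ⟨k, rfl⟩ : ∃ k, m = 2 * k + 1 := ⟨m / 2, by omega⟩
  have h4 := n1_pow_mod4_one q (2 * k) hq (Or.inr (by omega))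
  rw [pow_succ, Nat.mul_mod, h4, hq3]

theorem n1_split (q : ℕ) (hq : Odd q) (hq1 : 1 < q) (m : ℕ) (hm : 1 ≤ m) :
    padicValNat 2 (q ^ m - 1) + padicValNat 2 (q ^ m + 1) =
      padicValNat 2 (q ^ 2 - 1) + padicValNat 2 m := by
  have h1 := n1_one_lt_pow q hq1 hm
  rw [← n1_lte q hq hq1 m hm, ← padicValNat.mul (by omega) (by omega)]
  congr 1
  have : q ^ (2 * m) = q ^ m * q ^ m := by rw [two_mul, pow_add]
  rw [this]
  obtain ⟨x, hx⟩ : ∃ x, q ^ m = x + 1 := ⟨q ^ m - 1, by omega⟩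
  rw [hx]
  have e1 : x + 1 - 1 = x := rfl
  have e2 : (x + 1) * (x + 1) - 1 = x * (x + 1 + 1) := by
    apply Nat.sub_eq_of_eq_add; ring
  rw [e1, e2]

theorem n1_plus (q : ℕ) (hq : Odd q) (hq1 : 1 < q) (m : ℕ) (hm : 1 ≤ m) :
    padicValNat 2 (plusO q m) = 1 + padicValNat 2 (q ^ m - 1) +
      ((m - 1) * padicValNat 2 (q ^ 2 - 1) + padicValNat 2 (m - 1).factorial) := by
  have h1 := n1_one_lt_pow q hq1 hm
  have hp := n1_prod q hq hq1 (m - 1)
  have hq0 : q ^ (m * (m - 1)) ≠ 0 := pow_ne_zero _ (by omega)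
  unfold plusO
  rw [padicValNat.mul (mul_ne_zero (mul_ne_zero (by norm_num) hq0) (by omega)) hp.1,
    padicValNat.mul (mul_ne_zero (by norm_num) hq0) (by omega),
    padicValNat.mul (by norm_num) hq0, padicValNat_self, n1_v2_pow q hq, hp.2]

theorem n1_minus (q : ℕ) (hq : Odd q) (hq1 : 1 < q) (m : ℕ) (hm : 1 ≤ m) :
    padicValNat 2 (minusO q m) = 1 + padicValNat 2 (q ^ m + 1) +
      ((m - 1) * padicValNat 2 (q ^ 2 - 1) + padicValNat 2 (m - 1).factorial) := by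
  have hp := n1_prod q hq hq1 (m - 1)
  have hq0 : q ^ (m * (m - 1)) ≠ 0 := pow_ne_zero _ (by omega)
  unfold minusO
  rw [padicValNat.mul (mul_ne_zero (mul_ne_zero (by norm_num) hq0) (by omega)) hp.1,
    padicValNat.mul (mul_ne_zero (by norm_num) hq0) (by omega),
    padicValNat.mul (by norm_num) hq0, padicValNat_self, n1_v2_pow q hq, hp.2]

theorem n1_fact (m : ℕ) (hm : 1 ≤ m) :
    padicValNat 2 m.factorial = padicValNat 2 m + padicValNat 2 (m - 1).factorial := by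
  obtain ⟨k, rfl⟩ : ∃ k, m = k + 1 := ⟨m - 1, by omega⟩
  rw [Nat.factorial_succ, padicValNat.mul (by omega) (Nat.factorial_ne_zero k)]
  rfl

theorem v2_cI_even (q : ℕ) (hq : Odd q) (hq1 : 1 < q) (m : ℕ) (hm : 1 ≤ m) :
    padicValNat 2 (cI q (2 * m)) = m * padicValNat 2 (q ^ 2 - 1) + padicValNat 2 m.factorial := by
  have e1 : (2 * m) % 2 ≠ 1 := by omega
  have e2 : 2 * m / 2 = m := by omega
  have hs := n1_split q hq hq1 m hm
  have hf := n1_fact m hm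
  obtain ⟨k, rfl⟩ : ∃ k, m = k + 1 := ⟨m - 1, by omega⟩
  have e3 : k + 1 - 1 = k := rfl
  unfold cI
  rw [if_neg e1, e2]
  split_ifs with h
  · have h4 := n1_pow_mod4_one q (k + 1) hq h
    have h5 : padicValNat 2 (q ^ (k + 1) + 1) = 1 := n1_v2_of_mod4 (by omega)
    rw [n1_plus q hq hq1 (k + 1) hm, hf, e3, add_mul, one_mul]
    omega
  · have h4 := n1_pow_mod4_three q (k + 1) hq h
    have h5 : padicValNat 2 (q ^ (k + 1) - 1) = 1 := n1_v2_of_mod4 (by omega)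
    rw [n1_minus q hq hq1 (k + 1) hm, hf, e3, add_mul, one_mul]
    omega

theorem v2_cI_odd (q : ℕ) (hq : Odd q) (hq1 : 1 < q) (m : ℕ) :
    padicValNat 2 (cI q (2 * m + 1)) =
      1 + m * padicValNat 2 (q ^ 2 - 1) + padicValNat 2 m.factorial := by
  have e1 : (2 * m + 1) % 2 = 1 := by omega
  have e2 : (2 * m + 1) / 2 = m := by omega
  have hp := n1_prod q hq hq1 m
  have hq0 : q ^ (m ^ 2) ≠ 0 := pow_ne_zero _ (by omega)
  unfold cI
  rw [if_pos e1, e2]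
  unfold oddO
  rw [padicValNat.mul (mul_ne_zero (by norm_num) hq0) hp.1, padicValNat.mul (by norm_num) hq0,
    padicValNat_self, n1_v2_pow q hq, hp.2]
  ring

theorem v2_cJ (q : ℕ) (hq : Odd q) (hq1 : 1 < q) (m : ℕ) (hm : 1 ≤ m) :
    padicValNat 2 (cJ q (2 * m)) =
      2 + (m - 1) * padicValNat 2 (q ^ 2 - 1) + padicValNat 2 (m - 1).factorial := by
  have e2 : 2 * m / 2 = m := by omega
  unfold cJ
  rw [e2]
  split_ifs with h
  · have h4 := n1_pow_mod4_one q m hq h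
    have h5 : padicValNat 2 (q ^ m + 1) = 1 := n1_v2_of_mod4 (by omega)
    rw [n1_minus q hq hq1 m hm, h5]
    ring
  · have h4 := n1_pow_mod4_three q m hq h
    have h5 : padicValNat 2 (q ^ m - 1) = 1 := n1_v2_of_mod4 (by omega)
    rw [n1_plus q hq hq1 m hm, h5]
    ring

end Cfsg.Agent.Lib.Helper90.Syl2
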