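import Cfsg.Agent.Lib.Helper90.Syl2.N1

/-!
Ladder SYL2O, rung N2.
-/

set_option autoImplicit false

namespace Cfsg.Agent.Lib.Helper90.Syl2

open Nat

theorem n2_fact_two_mul (k : ℕ) :
    padicValNat 2 (2 * k).factorial = padicValNat 2 k.factorial + k :=
  padicValNat_factorial_mul k

theorem num_wreath (q : ℕ) (hq : Odd q) (hq1 : 1 < q) (i : ℕ) (hi : 1 ≤ i) :
    padicValNat 2 (cI q (2 ^ i + 2 ^ i)) = 2 * padicValNat 2 (cI q (2 ^ i)) + 1 := by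
  obtain ⟨j, rfl⟩ : ∃ j, i = j + 1 := ⟨i - 1, by omega⟩
  have hpos : 1 ≤ 2 ^ j := Nat.one_le_two_pow
  have e1 : 2 ^ (j + 1) + 2 ^ (j + 1) = 2 * (2 * 2 ^ j) := by ring
  have e2 : 2 ^ (j + 1) = 2 * 2 ^ j := by ring
  rw [e1, v2_cI_even q hq hq1 (2 * 2 ^ j) (by omega), e2, v2_cI_even q hq hq1 (2 ^ j) hpos,
    n2_fact_two_mul]
  have h3 : ∀ j : ℕ, padicValNat 2 (2 ^ j).factorial + 1 = 2 ^ j := by
    intro j
    induction j with
    | zero => simp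
    | succ j ih =>
      have : 2 ^ (j + 1) = 2 * 2 ^ j := by ring
      rw [this, n2_fact_two_mul]
      omega
  have h4 := h3 j
  have h5 : 2 * 2 ^ j * padicValNat 2 (q ^ 2 - 1) = 2 * (2 ^ j * padicValNat 2 (q ^ 2 - 1)) := by ring
  rw [h5]
  omega

end Cfsg.Agent.Lib.Helper90.Syl2
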