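import Cfsg.Agent.Lib.Helper90.Syl2.N1

/-!
Ladder SYL2O, rung N3.
-/

set_option autoImplicit false

namespace Cfsg.Agent.Lib.Helper90.Syl2

open Nat

theorem n3_v2_add (k c : ℕ) (hc : 0 < c) (hck : c < 2 ^ k) :
    padicValNat 2 (2 ^ k + c) = padicValNat 2 c := by
  have key : ∀ j : ℕ, 2 ^ j ∣ 2 ^ k + c ↔ 2 ^ j ∣ c := by
    intro j
    by_cases hj : j ≤ k
    · exact Nat.dvd_add_right (pow_dvd_pow 2 hj)
    · push Not at hj
      constructor
      · intro h
        exfalso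
        have h1 : 2 ^ k ∣ 2 ^ k + c := (pow_dvd_pow 2 hj.le).trans h
        have h2 : 2 ^ k ∣ c := (Nat.dvd_add_right dvd_rfl).1 h1
        have := Nat.le_of_dvd hc h2
        omega
      · intro h
        exfalso
        have h1 : 2 ^ k ∣ c := (pow_dvd_pow 2 hj.le).trans h
        have := Nat.le_of_dvd hc h1
        omega
  apply le_antisymm
  · rw [← padicValNat_dvd_iff_le (by omega), ← key]
    exact pow_padicValNat_dvd
  · rw [← padicValNat_dvd_iff_le (by omega), key]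
    exact pow_padicValNat_dvd

theorem n3_fact_add (k c : ℕ) (hck : c < 2 ^ k) :
    padicValNat 2 (2 ^ k + c).factorial =
      padicValNat 2 (2 ^ k).factorial + padicValNat 2 c.factorial := by
  induction c with
  | zero => simp
  | succ c ih =>
    have e : 2 ^ k + (c + 1) = (2 ^ k + c) + 1 := by ring
    rw [e, Nat.factorial_succ, padicValNat.mul (by omega) (Nat.factorial_ne_zero _),
      ih (by omega), Nat.factorial_succ, padicValNat.mul (by omega) (Nat.factorial_ne_zero _),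
      ← e, n3_v2_add k (c + 1) (by omega) hck]
    ring

theorem num_prod (q : ℕ) (hq : Odd q) (hq1 : 1 < q) (i b : ℕ) (hi : 1 ≤ i) (hb : 1 ≤ b)
    (hb' : b < 2 ^ i) : padicValNat 2 (cI q (2 ^ i + b)) = padicValNat 2 (cI q (2 ^ i)) + padicValNat 2 (cI q b) := by
  obtain ⟨j, rfl⟩ : ∃ j, i = j + 1 := ⟨i - 1, by omega⟩
  have hpos : 1 ≤ 2 ^ j := Nat.one_le_two_pow
  have e2 : 2 ^ (j + 1) = 2 * 2 ^ j := by ring
  rw [e2] at hb' ⊢
  rcases Nat.even_or_odd' b with ⟨c, rfl | rfl⟩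
  · have e1 : 2 * 2 ^ j + 2 * c = 2 * (2 ^ j + c) := by ring
    rw [e1, v2_cI_even q hq hq1 (2 ^ j + c) (by omega), v2_cI_even q hq hq1 (2 ^ j) hpos,
      v2_cI_even q hq hq1 c (by omega), n3_fact_add j c (by omega)]
    ring
  · have e1 : 2 * 2 ^ j + (2 * c + 1) = 2 * (2 ^ j + c) + 1 := by ring
    rw [e1, v2_cI_odd q hq hq1 (2 ^ j + c), v2_cI_even q hq hq1 (2 ^ j) hpos,
      v2_cI_odd q hq hq1 c, n3_fact_add j c (by omega)]
    ring

end Cfsg.Agent.Lib.Helper90.Syl2
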