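import Cfsg.Agent.Lib.Helper90.Syl2.Defs
import Cfsg.Agent.Lib.Helper90.Syl2.A6
import Cfsg.Agent.Lib.Helper90.Syl2.A1
import Cfsg.Agent.Lib.Helper90.Syl2.A8

/-!
Ladder SYL2O, rung P1: `Nice` is inherited by products of odd index.
-/

set_option autoImplicit false

namespace Cfsg.Agent.Lib.Helper90.Syl2

theorem p1_comm {A B G : Type*} [Group A] [Group B] [Group G] (j : A × B →* G)
    (X : Subgroup A) (Y : Subgroup B) :
    ∀ x ∈ X.map (j.comp (MonoidHom.inl A B)), ∀ y ∈ Y.map (j.comp (MonoidHom.inr A B)),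
      Commute x y := by
  rintro _ ⟨x, -, rfl⟩ _ ⟨y, -, rfl⟩
  show j (x, 1) * j (1, y) = j (1, y) * j (x, 1)
  rw [← map_mul, ← map_mul]
  simp

theorem nice_prod {A B G : Type*} [Group A] [Group B] [Group G] [Finite G] (j : A × B →* G)
    (hj : Function.Injective j)
    (hk : padicValNat 2 (Nat.card G) = padicValNat 2 (Nat.card A) + padicValNat 2 (Nat.card B))
    (hA : Nice A) (hB : Nice B) : Nice G := by
  obtain ⟨X, hX, hXo, hXs⟩ := hA
  obtain ⟨Y, hY, hYo, hYs⟩ := hB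
  obtain ⟨h1, h2, h3⟩ := pack_prod j hj hk X Y hX hY hXo hYo
  refine ⟨(X.prod Y).map j, h1, h2, ?_⟩
  have h := sqIn_prod_inf ⊤ (X.map (j.comp (MonoidHom.inl A B)))
    (Y.map (j.comp (MonoidHom.inr A B))) (p1_comm j X Y) (hXs.map _) (hYs.map _)
    (fun x _ => ⟨1, Subgroup.one_mem _, Subgroup.mem_top _⟩)
    (fun y _ y' _ => ⟨1, Subgroup.one_mem _, 1, Subgroup.one_mem _, Commute.one_left _,
      Subgroup.mem_top _, Subgroup.mem_top _⟩)
  rw [inf_top_eq, ← h3] at h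
  exact h

end Cfsg.Agent.Lib.Helper90.Syl2
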