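import Cfsg.Agent.Lib.Helper90.Syl2.Defs
import Cfsg.Agent.Lib.Helper90.Syl2.A5
import Cfsg.Agent.Lib.Helper90.Syl2.A6
import Cfsg.Agent.Lib.Helper90.Syl2.P1

/-!
Ladder SYL2O, rung P2: `NiceC` is inherited by products of odd index.
-/

set_option autoImplicit false

namespace Cfsg.Agent.Lib.Helper90.Syl2

theorem p2_map_commutator {A G : Type*} [Group A] [Group G] (f : A →* G) {a : A}
    (ha : a ∈ commutator A) : f a ∈ commutator G := by
  have h1 : f a ∈ (commutator A).map f := Subgroup.mem_map_of_mem f ha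
  rw [commutator_def, Subgroup.map_commutator] at h1
  rw [commutator_def]
  exact Subgroup.commutator_mono le_top le_top h1

theorem p2_onto {A G : Type*} [Group A] [Group G] [Finite G] (f : A →* G)
    (hf : Function.Injective f) (h4 : (commutator G).index = 4) (X : Subgroup A)
    (hXo : Odd X.index) (ho : ∀ g : G, ∃ a : A, g * f a ∈ commutator G) :
    OntoP (commutator G) (X.map f) := by
  have : Finite A := Finite.of_injective f hf
  have hidx : ∃ e : ℕ, ((commutator G).comap f).index = 2 ^ e := by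
    have h1 : ((commutator G).comap f).index ∣ 2 ^ 2 := by
      rw [Subgroup.index_comap]
      have := Subgroup.relIndex_dvd_index_of_normal (commutator G) f.range
      rw [h4] at this
      exact this
    obtain ⟨e, -, he⟩ := (Nat.dvd_prime_pow Nat.prime_two).1 h1
    exact ⟨e, he⟩
  have hon := ontoP_of_odd ((commutator G).comap f) X hidx hXo
  intro g
  obtain ⟨a, ha⟩ := ho g
  obtain ⟨x, hx, hxa⟩ := hon a⁻¹
  refine ⟨f x, Subgroup.mem_map_of_mem f hx, ?_⟩
  have h2 : f (a⁻¹ * x) ∈ commutator G := hxa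
  have h3 : g * f x = (g * f a) * f (a⁻¹ * x) := by
    rw [map_mul, map_inv]; group
  rw [h3]
  exact Subgroup.mul_mem _ ha h2

theorem p2_commP {A G : Type*} [Group A] [Group G] (f : A →* G) (X : Subgroup A)
    (hC : CommP (commutator A) X) (hon : OntoP (commutator G) (X.map f)) (p p' : G) :
    ∃ c ∈ X.map f, ∃ c' ∈ X.map f, Commute c c' ∧ p * c ∈ commutator G ∧
      p' * c' ∈ commutator G := by
  obtain ⟨_, ⟨x0, hx0, rfl⟩, h0⟩ := hon p
  obtain ⟨_, ⟨x0', hx0', rfl⟩, h0'⟩ := hon p'
  obtain ⟨a, ha, a', ha', hcomm, h1, h1'⟩ := hC x0⁻¹ (X.inv_mem hx0) x0'⁻¹ (X.inv_mem hx0')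
  refine ⟨f a, Subgroup.mem_map_of_mem f ha, f a', Subgroup.mem_map_of_mem f ha',
    hcomm.map f, ?_, ?_⟩
  · have h3 : p * f a = (p * f x0) * f (x0⁻¹ * a) := by
      rw [map_mul, map_inv]; group
    rw [h3]
    exact Subgroup.mul_mem _ h0 (p2_map_commutator f h1)
  · have h3 : p' * f a' = (p' * f x0') * f (x0'⁻¹ * a') := by
      rw [map_mul, map_inv]; group
    rw [h3]
    exact Subgroup.mul_mem _ h0' (p2_map_commutator f h1')

theorem p2_inl_injective {A B G : Type*} [Group A] [Group B] [Group G] (j : A × B →* G)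
    (hj : Function.Injective j) : Function.Injective (j.comp (MonoidHom.inl A B)) := by
  intro a a' h
  have := hj h
  simpa using this

theorem p2_inr_injective {A B G : Type*} [Group A] [Group B] [Group G] (j : A × B →* G)
    (hj : Function.Injective j) : Function.Injective (j.comp (MonoidHom.inr A B)) := by
  intro a a' h
  have := hj h
  simpa using this

theorem niceC_prod {A B G : Type*} [Group A] [Group B] [Group G] [Finite G] (j : A × B →* G)
    (hj : Function.Injective j)
    (hk : padicValNat 2 (Nat.card G) = padicValNat 2 (Nat.card A) + padicValNat 2 (Nat.card B))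
    (h4 : (commutator G).index = 4)
    (hA : NiceC A) (hB : Nice B)
    (hoA : ∀ g : G, ∃ a : A, g * j (a, 1) ∈ commutator G) : NiceC G := by
  obtain ⟨X, hX, hXo, hXs, hXc⟩ := hA
  obtain ⟨Y, hY, hYo, hYs⟩ := hB
  obtain ⟨h1, h2, h3⟩ := pack_prod j hj hk X Y hX hY hXo hYo
  refine ⟨(X.prod Y).map j, h1, h2, ?_, ?_⟩
  · have h := sqIn_prod_inf ⊤ (X.map (j.comp (MonoidHom.inl A B)))
      (Y.map (j.comp (MonoidHom.inr A B))) (p1_comm j X Y) (hXs.map _) (hYs.map _)
      (fun x _ => ⟨1, Subgroup.one_mem _, Subgroup.mem_top _⟩)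
      (fun y _ y' _ => ⟨1, Subgroup.one_mem _, 1, Subgroup.one_mem _, Commute.one_left _,
        Subgroup.mem_top _, Subgroup.mem_top _⟩)
    rw [inf_top_eq, ← h3] at h
    exact h
  · have hon := p2_onto (j.comp (MonoidHom.inl A B)) (p2_inl_injective j hj) h4 X hXo hoA
    intro p _ p' _
    obtain ⟨c, hc, c', hc', hcc, e1, e2⟩ := p2_commP (j.comp (MonoidHom.inl A B)) X hXc hon p p'
    rw [h3]
    exact ⟨c, Subgroup.mem_sup_left hc, c', Subgroup.mem_sup_left hc', hcc, e1, e2⟩

end Cfsg.Agent.Lib.Helper90.Syl2
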