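import Cfsg.Agent.Lib.Helper90.Syl2.Defs
import Cfsg.Agent.Lib.Helper90.Syl2.A4
import Cfsg.Agent.Lib.Helper90.Syl2.A5
import Cfsg.Agent.Lib.Helper90.Syl2.A6
import Cfsg.Agent.Lib.Helper90.Syl2.P1
import Cfsg.Agent.Lib.Helper90.Syl2.P2

/-!
Ladder SYL2O, rung P3: `Target` for products of odd index.
-/

set_option autoImplicit false

namespace Cfsg.Agent.Lib.Helper90.Syl2

theorem target_prod {A B G : Type*} [Group A] [Group B] [Group G] [Finite G] (j : A × B →* G)
    (hj : Function.Injective j)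
    (hk : padicValNat 2 (Nat.card G) = padicValNat 2 (Nat.card A) + padicValNat 2 (Nat.card B))
    (h4 : (commutator G).index = 4)
    (hA : NiceC A) (hB : Nice B)
    (hoA : ∀ g : G, ∃ a : A, g * j (a, 1) ∈ commutator G)
    (hoB : ∀ g : G, ∃ b : B, g * j (1, b) ∈ commutator G) : Target G := by
  obtain ⟨X, hX, hXo, hXs, hXc⟩ := hA
  obtain ⟨Y, hY, hYo, hYs⟩ := hB
  obtain ⟨h1, h2, h3⟩ := pack_prod j hj hk X Y hX hY hXo hYo
  have honA := p2_onto (j.comp (MonoidHom.inl A B)) (p2_inl_injective j hj) h4 X hXo hoA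
  have honB := p2_onto (j.comp (MonoidHom.inr A B)) (p2_inr_injective j hj) h4 Y hYo hoB
  have h := sqIn_prod_inf (commutator G) (X.map (j.comp (MonoidHom.inl A B)))
    (Y.map (j.comp (MonoidHom.inr A B))) (p1_comm j X Y) (hXs.map _) (hYs.map _)
    (fun x _ => honB x)
    (fun y hy y' hy' => by
      obtain ⟨c, hc, c', hc', hcc, e1, e2⟩ :=
        p2_commP (j.comp (MonoidHom.inl A B)) X hXc honA y y'
      refine ⟨c, hc, c', hc', hcc, ?_, ?_⟩
      · rw [(p1_comm j X Y c hc y hy).eq]; exact e1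
      · rw [(p1_comm j X Y c' hc' y' hy').eq]; exact e2)
  rw [← h3] at h
  exact target_of_sylow _ h1 h2 h

end Cfsg.Agent.Lib.Helper90.Syl2
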