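import Cfsg.Agent.Lib.Helper90.Syl2.Defs
import Cfsg.Agent.Lib.Helper90.Syl2.A2
import Cfsg.Agent.Lib.Helper90.Syl2.A7
import Cfsg.Agent.Lib.Helper90.Syl2.A8

/-!
Ladder SYL2O (helper90), rung W1 (helper76): `nice_wreath`, plus the small lemmas `w_*` shared by
the rungs W2 - W5.
-/

set_option autoImplicit false

namespace Cfsg.Agent.Lib.Helper90.Syl2

/-- the two factors of the base group commute. -/
theorem w_comm {A G : Type*} [Group A] [Group G] (j : A × A →* G) (σ : G)
    (hσj : ∀ x y, σ * j (x, y) * σ⁻¹ = j (y, x)) (X : Subgroup A) :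
    ∀ x ∈ X.map (j.comp (MonoidHom.inl A A)), ∀ x' ∈ X.map (j.comp (MonoidHom.inl A A)),
      Commute x (σ * x' * σ⁻¹) := by
  rintro _ ⟨a, -, rfl⟩ _ ⟨b, -, rfl⟩
  simp only [MonoidHom.comp_apply, MonoidHom.inl_apply]
  rw [hσj]
  show j (a, 1) * j (1, b) = j (1, b) * j (a, 1)
  rw [← map_mul, ← map_mul]
  simp

/-- a homomorphism maps the derived subgroup into the derived subgroup. -/
theorem w_map_mem_commutator {A G : Type*} [Group A] [Group G] (f : A →* G) {a : A}
    (ha : a ∈ commutator A) : f a ∈ commutator G := by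
  have h : (commutator A).map f ≤ commutator G := by
    rw [commutator_def, commutator_def, Subgroup.map_commutator]
    exact Subgroup.commutator_mono le_top le_top
  exact h ⟨a, ha, rfl⟩

/-- commuting representatives are transported by a homomorphism. -/
theorem w_commP_map {A G : Type*} [Group A] [Group G] (f : A →* G) {X : Subgroup A}
    (h : CommP (commutator A) X) : CommP (commutator G) (X.map f) := by
  rintro _ ⟨a, ha, rfl⟩ _ ⟨b, hb, rfl⟩
  obtain ⟨c, hc, c', hc', hcc, h1, h2⟩ := h a ha b hb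
  refine ⟨f c, ⟨c, hc, rfl⟩, f c', ⟨c', hc', rfl⟩, hcc.map f, ?_, ?_⟩
  · rw [← map_mul]; exact w_map_mem_commutator f h1
  · rw [← map_mul]; exact w_map_mem_commutator f h2

/-- W1. -/
theorem nice_wreath {A G : Type*} [Group A] [Group G] [Finite G] (j : A × A →* G)
    (hj : Function.Injective j) (σ : G) (hσ : σ * σ = 1)
    (hσj : ∀ x y, σ * j (x, y) * σ⁻¹ = j (y, x)) (hσn : σ ∉ j.range)
    (hk : padicValNat 2 (Nat.card G) = 2 * padicValNat 2 (Nat.card A) + 1)
    (hA : Nice A) : Nice G := by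
  obtain ⟨X, hX2, hXo, hXs⟩ := hA
  obtain ⟨h1, h2⟩ := pack_wreath j hj σ hσ hσj hσn hk X hX2 hXo
  refine ⟨_, h1, h2, ?_⟩
  have h := sqIn_wreath_inf (⊤ : Subgroup G) (X.map (j.comp (MonoidHom.inl A A))) le_top σ 1 hσ
    (one_mul 1) (Commute.one_right σ) (fun x _ => Commute.one_left x) (w_comm j σ hσj X)
    (Subgroup.mem_top σ) (hXs.map _)
    (fun x _ x' _ => ⟨1, one_mem _, 1, one_mem _, Commute.one_left 1, Subgroup.mem_top _,
      Subgroup.mem_top _⟩)
  rwa [Subgroup.zpowers_one_eq_bot, sup_bot_eq, inf_top_eq] at h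

end Cfsg.Agent.Lib.Helper90.Syl2
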