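import Cfsg.Agent.Lib.Helper90.Syl2.W1
import Cfsg.Agent.Lib.Helper90.Syl2.A4

/-!
Ladder SYL2O (helper90), rung W3 (helper76): `target_wreath`.
-/

set_option autoImplicit false

namespace Cfsg.Agent.Lib.Helper90.Syl2

/-- W3. -/
theorem target_wreath {A G : Type*} [Group A] [Group G] [Finite G] (j : A × A →* G)
    (hj : Function.Injective j) (σ : G) (hσ : σ * σ = 1)
    (hσj : ∀ x y, σ * j (x, y) * σ⁻¹ = j (y, x)) (hσn : σ ∉ j.range)
    (hk : padicValNat 2 (Nat.card G) = 2 * padicValNat 2 (Nat.card A) + 1)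
    (hA : NiceC A) (hσc : σ ∈ commutator G) : Target G := by
  obtain ⟨X, hX2, hXo, hXs, hXc⟩ := hA
  obtain ⟨h1, h2⟩ := pack_wreath j hj σ hσ hσj hσn hk X hX2 hXo
  refine target_of_sylow _ h1 h2 ?_
  have h := sqIn_wreath_inf (commutator G) (X.map (j.comp (MonoidHom.inl A A))) le_rfl σ 1 hσ
    (one_mul 1) (Commute.one_right σ) (fun x _ => Commute.one_left x) (w_comm j σ hσj X)
    hσc (hXs.map _) (w_commP_map _ hXc)
  rwa [Subgroup.zpowers_one_eq_bot, sup_bot_eq] at h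

end Cfsg.Agent.Lib.Helper90.Syl2
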