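import Cfsg.Agent.Lib.Helper90.Syl2.W1
import Cfsg.Agent.Lib.Helper90.Syl2.A4
import Cfsg.Agent.Lib.Helper90.Syl2.A6

/-!
Ladder SYL2O (helper90), rung W5 (helper76): `target_wreath_ext`.
-/

set_option autoImplicit false

namespace Cfsg.Agent.Lib.Helper90.Syl2

/-- the image of a conjugate is the conjugate of the image. -/
theorem w5_map_conj {G H : Type*} [Group G] [Group H] (f : G →* H) (σ : G) (K : Subgroup G) :
    (K.map (MulAut.conj σ).toMonoidHom).map f = (K.map f).map (MulAut.conj (f σ)).toMonoidHom := by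
  rw [Subgroup.map_map, Subgroup.map_map]
  congr 1
  ext x
  simp

/-- W5. -/
theorem target_wreath_ext {A G₀ B G : Type*} [Group A] [Group G₀] [Group B] [Group G] [Finite G]
    (j : A × A →* G₀) (hj : Function.Injective j) (σ : G₀) (hσ : σ * σ = 1)
    (hσj : ∀ x y, σ * j (x, y) * σ⁻¹ = j (y, x)) (hσn : σ ∉ j.range)
    (hk₀ : padicValNat 2 (Nat.card G₀) = 2 * padicValNat 2 (Nat.card A) + 1)
    (j₂ : G₀ × B →* G) (hj₂ : Function.Injective j₂) (hB : Nat.card B = 2)
    (hk : padicValNat 2 (Nat.card G) = padicValNat 2 (Nat.card G₀) + 1)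
    (hA : NiceC A) (hσc : σ ∈ commutator G₀) : Target G := by
  obtain ⟨X, hX2, hXo, hXs, hXc⟩ := hA
  have hfin : Finite G₀ := by
    refine Finite.of_injective (fun a : G₀ => j₂ (a, 1)) ?_
    intro a b hab
    have := hj₂ hab
    simpa using this
  obtain ⟨h1, h2⟩ := pack_wreath j hj σ hσ hσj hσn hk₀ X hX2 hXo
  -- the group `B`
  have : Fact (Nat.Prime 2) := ⟨Nat.prime_two⟩
  have hcyc : IsCyclic B := isCyclic_of_prime_card hB
  obtain ⟨b, hb⟩ := hcyc.exists_generator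
  have hbtop : (⊤ : Subgroup B) = Subgroup.zpowers b := by
    ext x; simp [hb x]
  have hbb : b * b = 1 := by
    have := pow_card_eq_one' (G := B) (x := b)
    rw [hB] at this
    rwa [pow_two] at this
  have hBp : IsPGroup 2 (⊤ : Subgroup B) := by
    refine IsPGroup.of_card (n := 1) ?_
    rw [Subgroup.card_top, hB, pow_one]
  have hk' : padicValNat 2 (Nat.card G) = padicValNat 2 (Nat.card G₀) + padicValNat 2 (Nat.card B) := by
    rw [hk, hB, padicValNat_self]
  obtain ⟨g1, g2, g3⟩ := pack_prod j₂ hj₂ hk' _ (⊤ : Subgroup B) h1 hBp h2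
    (by rw [Subgroup.index_top]; exact odd_one)
  set f : G₀ →* G := j₂.comp (MonoidHom.inl G₀ B) with hf
  set X' : Subgroup G₀ := X.map (j.comp (MonoidHom.inl A A)) with hX'
  have hfa : ∀ y : G₀, f y = j₂ (y, 1) := fun y => rfl
  -- rewrite the big subgroup
  have hP : ((X' ⊔ X'.map (MulAut.conj σ).toMonoidHom ⊔ Subgroup.zpowers σ).prod
      (⊤ : Subgroup B)).map j₂ =
      X'.map f ⊔ (X'.map f).map (MulAut.conj (f σ)).toMonoidHom ⊔ Subgroup.zpowers (f σ) ⊔
        Subgroup.zpowers (j₂ (1, b)) := by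
    rw [g3, Subgroup.map_sup, Subgroup.map_sup, w5_map_conj, MonoidHom.map_zpowers, hbtop,
      MonoidHom.map_zpowers]
    rfl
  rw [hP] at g1 g2
  refine target_of_sylow _ g1 g2 ?_
  refine sqIn_wreath_inf (commutator G) (X'.map f) le_rfl (f σ) (j₂ (1, b)) ?_ ?_ ?_ ?_ ?_ ?_ ?_ ?_
  · rw [← map_mul, hσ, map_one]
  · rw [← map_mul, Prod.mk_mul_mk, one_mul, hbb]; exact map_one j₂
  · show f σ * j₂ (1, b) = j₂ (1, b) * f σ
    rw [hfa, ← map_mul, ← map_mul]; simp
  · rintro _ ⟨y, -, rfl⟩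
    show j₂ (1, b) * f y = f y * j₂ (1, b)
    rw [hfa, ← map_mul, ← map_mul]; simp
  · rintro _ ⟨y, hy, rfl⟩ _ ⟨y', hy', rfl⟩
    have := (w_comm j σ hσj X y hy y' hy').map f
    simpa using this
  · exact w_map_mem_commutator f hσc
  · exact (hXs.map _).map _
  · exact w_commP_map _ (w_commP_map _ hXc)

end Cfsg.Agent.Lib.Helper90.Syl2
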