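import Cfsg.Agent.Lib.Helper90.Syl2.A1
import Cfsg.Agent.Lib.Helper90.Syl2.A2
import Cfsg.Agent.Lib.Helper90.Syl2.A3
import Cfsg.Agent.Lib.Helper90.Syl2.A4
import Cfsg.Agent.Lib.Helper90.Syl2.A5
import Cfsg.Agent.Lib.Helper90.Syl2.A6
import Cfsg.Agent.Lib.Helper90.Syl2.A7
import Cfsg.Agent.Lib.Helper90.Syl2.A8
import Cfsg.Agent.Lib.Helper90.Syl2.P1
import Cfsg.Agent.Lib.Helper90.Syl2.P2
import Cfsg.Agent.Lib.Helper90.Syl2.P3
import Cfsg.Agent.Lib.Helper90.Syl2.W1
import Cfsg.Agent.Lib.Helper90.Syl2.W2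
import Cfsg.Agent.Lib.Helper90.Syl2.W3
import Cfsg.Agent.Lib.Helper90.Syl2.W4
import Cfsg.Agent.Lib.Helper90.Syl2.W5
import Cfsg.Agent.Lib.Helper90.Syl2.G0
import Cfsg.Agent.Lib.Helper90.Syl2.G1
import Cfsg.Agent.Lib.Helper90.Syl2.G2
import Cfsg.Agent.Lib.Helper90.Syl2.G3
import Cfsg.Agent.Lib.Helper90.Syl2.G4
import Cfsg.Agent.Lib.Helper90.Syl2.G5
import Cfsg.Agent.Lib.Helper90.Syl2.G6
import Cfsg.Agent.Lib.Helper90.Syl2.G7A
import Cfsg.Agent.Lib.Helper90.Syl2.G7B
import Cfsg.Agent.Lib.Helper90.Syl2.GS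
import Cfsg.Agent.Lib.Helper90.Syl2.I1
import Cfsg.Agent.Lib.Helper90.Syl2.I2
import Cfsg.Agent.Lib.Helper90.Syl2.I3
import Cfsg.Agent.Lib.Helper90.Syl2.I4
import Cfsg.Agent.Lib.Helper90.Syl2.E1
import Cfsg.Agent.Lib.Helper90.Syl2.E2
import Cfsg.Agent.Lib.Helper90.Syl2.E3
import Cfsg.Agent.Lib.Helper90.Syl2.E4
import Cfsg.Agent.Lib.Helper90.Syl2.E5
import Cfsg.Agent.Lib.Helper90.Syl2.N1
import Cfsg.Agent.Lib.Helper90.Syl2.N2
import Cfsg.Agent.Lib.Helper90.Syl2.N3
import Cfsg.Agent.Lib.Helper90.Syl2.N4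
import Cfsg.Agent.Lib.Helper18.OrthOmega

set_option autoImplicit false

namespace Cfsg.Agent.Lib.Helper90.Syl2

open Cfsg.Agent.Lib.Helper18 QuadraticMap

variable {F : Type*} [Field F] [Fintype F]

theorem niceT_binary {ι : Type} [Fintype ι] [DecidableEq ι] (h2 : (2 : F) ≠ 0) (a : ι → F)
    (ha : ∀ i, a i ≠ 0) (hι : Fintype.card ι = 2) : NiceT (OO a) := by
  obtain ⟨S, h1, h3⟩ := binary_struct h2 a ha hι
  exact niceT_of_dihedral S h1 h3

theorem index_comm {ι : Type} [Fintype ι] [DecidableEq ι] (h2 : (2 : F) ≠ 0) (a : ι → F)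
    (ha : ∀ i, a i ≠ 0) (hι : 2 ≤ Fintype.card ι) : (commutator (OO a)).index = 4 :=
  index_commutator (dg a) h2 (dg_nondeg h2 a ha) hι

theorem odd_card_F (h2 : (2 : F) ≠ 0) : Odd (Fintype.card F) :=
  Nat.odd_iff.mpr (card_odd h2)

theorem nice_of_card_two {G : Type*} [Group G] (h : Nat.card G = 2) : Nice G := by
  refine ⟨⊤, ?_, ?_, ?_⟩
  · have : IsPGroup 2 G := IsPGroup.of_card (n := 1) (by simpa using h)
    exact this.to_subgroup ⊤
  · simp
  · intro r _
    have : r ^ 2 = 1 := by rw [← h]; exact pow_card_eq_one'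
    rw [this]; exact Subgroup.one_mem _

theorem NiceT.nice {G : Type*} [Group G] (h : NiceT G) : Nice G := by
  obtain ⟨X, h1, h2, h3, -⟩ := h
  exact ⟨X, h1, h2, h3⟩

theorem iso_II (h2 : (2 : F) ≠ 0) (a b : ℕ) (h : 1 ≤ a + b) :
    Nonempty (OO (Sum.elim (fun _ : Fin a => (1 : F)) (fun _ : Fin b => (1 : F))) ≃* GI F (a + b)) := by
  apply iso_dg h2
  · rintro (i | i) <;> simp
  · intro i; simp
  · simp
  · simpa using h
  · exact ⟨1, one_ne_zero, by simp⟩

omit [Fintype F] in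
theorem prod_J (n : ℕ) (δ : F) : ∏ i : Fin (n + 1), (if i.val = 0 then δ else (1 : F)) = δ := by
  rw [Fin.prod_univ_succ]
  simp

theorem iso_IJ (h2 : (2 : F) ≠ 0) (n : ℕ) {δ : F} (hδ : δ ≠ 0) :
    Nonempty (OO (Sum.elim (fun _ : Fin n => (1 : F))
      (fun i : Fin 2 => if i.val = 0 then δ else (1 : F))) ≃* GJ (n + 2) δ) := by
  apply iso_dg h2
  · rintro (i | i)
    · simp
    · simp only [Sum.elim_inr]; split_ifs <;> simp [hδ]
  · intro i; split_ifs <;> simp [hδ]
  · simp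
  · simp
  · refine ⟨1, one_ne_zero, ?_⟩
    rw [Fintype.prod_sum_type, prod_J (n + 1) δ]
    simp only [Sum.elim_inl, Sum.elim_inr]
    rw [prod_J 1 δ]
    simp

theorem iso_III (h2 : (2 : F) ≠ 0) (a b : ℕ) :
    Nonempty (OO (Sum.elim (Sum.elim (fun _ : Fin a => (1 : F)) (fun _ : Fin a => (1 : F)))
      (fun _ : Fin b => (1 : F))) ≃* GI F (a + a + b)) ∨ a + a + b = 0 := by
  by_cases h : a + a + b = 0
  · exact Or.inr h
  left
  apply iso_dg h2
  · rintro ((i | i) | i) <;> simp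
  · intro i; simp
  · simp
  · simp; omega
  · exact ⟨1, one_ne_zero, by simp⟩

/-- the wreath data for `I_h ⊥ I_h`. -/
theorem wreath_data (h2 : (2 : F) ≠ 0) (i : ℕ) (hi : 1 ≤ i) :
    ∃ (j : GI F (2 ^ i) × GI F (2 ^ i) →*
        OO (Sum.elim (fun _ : Fin (2 ^ i) => (1 : F)) (fun _ : Fin (2 ^ i) => (1 : F))))
      (σ : OO (Sum.elim (fun _ : Fin (2 ^ i) => (1 : F)) (fun _ : Fin (2 ^ i) => (1 : F)))),
      IsBlk j ∧ σ * σ = 1 ∧ (∀ x y, σ * j (x, y) * σ⁻¹ = j (y, x)) ∧ σ ∉ j.range ∧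
      σ ∈ commutator _ ∧
      padicValNat 2 (Nat.card (OO (Sum.elim (fun _ : Fin (2 ^ i) => (1 : F))
        (fun _ : Fin (2 ^ i) => (1 : F))))) = 2 * padicValNat 2 (Nat.card (GI F (2 ^ i))) + 1 := by
  obtain ⟨j, hj⟩ := exists_blk (fun _ : Fin (2 ^ i) => (1 : F)) (fun _ : Fin (2 ^ i) => (1 : F))
  have : Nonempty (Fin (2 ^ i)) := ⟨⟨0, by positivity⟩⟩
  obtain ⟨σ, h1, h3, h4, h5⟩ := exists_swap h2 (a := fun _ : Fin (2 ^ i) => (1 : F))
    (fun _ => one_ne_zero) hj
  refine ⟨j, σ, hj, h1, h3, h4, h5 (fun _ => rfl) ?_, ?_⟩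
  · rw [Fintype.card_fin]
    exact (Nat.even_pow.mpr ⟨even_two, by omega⟩)
  · obtain ⟨e⟩ := iso_II h2 (2 ^ i) (2 ^ i) (by have : 0 < 2 ^ i := by positivity
                                                omega)
    rw [Nat.card_congr e.toEquiv, card_GI h2 _ (by have : 0 < 2 ^ i := by positivity
                                                   omega),
      card_GI h2 _ (Nat.one_le_two_pow)]
    exact num_wreath _ (odd_card_F h2) Fintype.one_lt_card i hi

theorem two_le_pow {i : ℕ} (hi : 1 ≤ i) : 2 ≤ 2 ^ i := by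
  calc 2 = 2 ^ 1 := rfl
    _ ≤ 2 ^ i := Nat.pow_le_pow_right (by norm_num) hi

theorem four_le_pow {i : ℕ} (hi : 2 ≤ i) : 4 ≤ 2 ^ i := by
  calc 4 = 2 ^ 2 := rfl
    _ ≤ 2 ^ i := Nat.pow_le_pow_right (by norm_num) hi

/-- the product data for `I_a ⊥ I_b`. -/
theorem prod_data (h2 : (2 : F) ≠ 0) (i b : ℕ) (hi : 1 ≤ i) (hb : 1 ≤ b) (hb' : b < 2 ^ i) :
    ∃ (j : GI F (2 ^ i) × GI F b →*
        OO (Sum.elim (fun _ : Fin (2 ^ i) => (1 : F)) (fun _ : Fin b => (1 : F)))),
      IsBlk j ∧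
      padicValNat 2 (Nat.card (OO (Sum.elim (fun _ : Fin (2 ^ i) => (1 : F))
        (fun _ : Fin b => (1 : F))))) =
        padicValNat 2 (Nat.card (GI F (2 ^ i))) + padicValNat 2 (Nat.card (GI F b)) := by
  obtain ⟨j, hj⟩ := exists_blk (fun _ : Fin (2 ^ i) => (1 : F)) (fun _ : Fin b => (1 : F))
  refine ⟨j, hj, ?_⟩
  obtain ⟨e⟩ := iso_II h2 (2 ^ i) b (by omega)
  rw [Nat.card_congr e.toEquiv, card_GI h2 _ (by omega), card_GI h2 _ (Nat.one_le_two_pow),
    card_GI h2 _ hb]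
  exact num_prod _ (odd_card_F h2) Fintype.one_lt_card i b hi hb hb'

theorem decomp (n : ℕ) (hn : 3 ≤ n) :
    (∃ i, 1 ≤ i ∧ n = 2 ^ i + 2 ^ i) ∨ ∃ i b, 1 ≤ i ∧ 1 ≤ b ∧ b < 2 ^ i ∧ n = 2 ^ i + b := by
  have h1 : 2 ^ Nat.log 2 n ≤ n := Nat.pow_log_le_self 2 (by omega)
  have h3 : n < 2 ^ (Nat.log 2 n + 1) := Nat.lt_pow_succ_log_self (by norm_num) n
  have h4 : 1 ≤ Nat.log 2 n := by
    by_contra h
    have : Nat.log 2 n = 0 := by omega
    rw [this] at h3
    norm_num at h3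
    omega
  rcases Nat.eq_or_lt_of_le h1 with h | h
  · left
    have h5 : 2 ≤ Nat.log 2 n := by
      by_contra h'
      have : Nat.log 2 n = 1 := by omega
      rw [this] at h
      norm_num at h
      omega
    refine ⟨Nat.log 2 n - 1, by omega, ?_⟩
    obtain ⟨l, hl⟩ : ∃ l, Nat.log 2 n = l + 1 := ⟨Nat.log 2 n - 1, by omega⟩
    rw [hl] at h ⊢
    rw [pow_succ] at h
    simp only [Nat.add_sub_cancel]
    omega
  · right
    refine ⟨Nat.log 2 n, n - 2 ^ Nat.log 2 n, h4, by omega, ?_, by omega⟩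
    rw [pow_succ] at h3
    omega

theorem nice_GI (h2 : (2 : F) ≠ 0) :
    ∀ n, 1 ≤ n → Nice (GI F n) ∧ (4 ≤ n → NiceC (GI F n)) := by
  intro n
  induction n using Nat.strong_induction_on with
  | _ n ih =>
    intro hn
    rcases Nat.lt_or_ge n 3 with h3 | h3
    · refine ⟨?_, fun h => by omega⟩
      rcases (by omega : n = 1 ∨ n = 2) with rfl | rfl
      · exact nice_of_card_two (card_unary h2 _ (fun _ => one_ne_zero) (by simp))
      · exact (niceT_binary h2 _ (fun _ => one_ne_zero) (by simp)).nice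
    · rcases decomp n h3 with ⟨i, hi, rfl⟩ | ⟨i, b, hi, hb, hb', rfl⟩
      · obtain ⟨j, σ, hj, s1, s2, s3, -, hk⟩ := wreath_data (F := F) h2 i hi
        have hpos : 0 < 2 ^ i := by positivity
        obtain ⟨e⟩ := iso_II (F := F) h2 (2 ^ i) (2 ^ i) (by omega)
        have hA := (ih (2 ^ i) (by omega) (by omega)).1
        refine ⟨(nice_wreath j hj.injective σ s1 s2 s3 hk hA).of_equiv e, fun _ => ?_⟩
        refine (niceC_wreath j hj.injective σ s1 s2 s3 hk ?_ hA ?_).of_equiv e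
        · apply index_comm h2
          · rintro (i | i) <;> simp
          · simp; omega
        · exact blk_onto_left h2 (fun _ => one_ne_zero) (fun _ => one_ne_zero)
            (by simpa using two_le_pow hi) hj
      · obtain ⟨j, hj, hk⟩ := prod_data (F := F) h2 i b hi hb hb'
        have hpos : 0 < 2 ^ i := by positivity
        obtain ⟨e⟩ := iso_II (F := F) h2 (2 ^ i) b (by omega)
        have hA := ih (2 ^ i) (by omega) (by omega)
        have hB := (ih b (by omega) hb).1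
        refine ⟨(nice_prod j hj.injective hk hA.1 hB).of_equiv e, fun h4 => ?_⟩
        have hi2 : 2 ≤ i := by
          by_contra h
          have : i = 1 := by omega
          subst this
          norm_num at hb' h4
          omega
        refine (niceC_prod j hj.injective hk ?_ (hA.2 (four_le_pow hi2)) hB ?_).of_equiv e
        · apply index_comm h2
          · rintro (i | i) <;> simp
          · simp; omega
        · exact blk_onto_left h2 (fun _ => one_ne_zero) (fun _ => one_ne_zero)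
            (by simpa using two_le_pow hi) hj

theorem target_GI (h2 : (2 : F) ≠ 0) (n : ℕ) (hn : n = 4 ∨ 6 ≤ n) : Target (GI F n) := by
  rcases decomp n (by omega) with ⟨i, hi, rfl⟩ | ⟨i, b, hi, hb, hb', rfl⟩
  · obtain ⟨j, σ, hj, s1, s2, s3, s4, hk⟩ := wreath_data (F := F) h2 i hi
    have hpos : 0 < 2 ^ i := by positivity
    obtain ⟨e⟩ := iso_II (F := F) h2 (2 ^ i) (2 ^ i) (by omega)
    refine Target.of_equiv e ?_
    rcases Nat.lt_or_ge i 2 with h | h
    · have : i = 1 := by omega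
      subst this
      refine target_wreath_tight j hj.injective σ s1 s2 s3 hk
        (niceT_binary h2 _ (fun _ => one_ne_zero) (by simp)) s4 ?_
      exact blk_comm_imp h2 (fun _ => one_ne_zero) (fun _ => one_ne_zero) (by simp) hj
    · exact target_wreath j hj.injective σ s1 s2 s3 hk
        ((nice_GI h2 _ (by omega)).2 (four_le_pow h)) s4
  · have hi2 : 2 ≤ i := by
      by_contra h
      have : i = 1 := by omega
      subst this
      norm_num at hb' hn
      omega
    have hpos : 0 < 2 ^ i := by positivity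
    rcases Nat.lt_or_ge b 2 with hb2 | hb2
    · -- `n = 2^i + 1`
      have : b = 1 := by omega
      subst this
      have hi3 : 3 ≤ i := by
        by_contra h
        have : i = 2 := by omega
        subst this
        norm_num at hn
      obtain ⟨l, rfl⟩ : ∃ l, i = l + 1 := ⟨i - 1, by omega⟩
      obtain ⟨j, σ, hj, s1, s2, s3, s4, hk⟩ := wreath_data (F := F) h2 l (by omega)
      obtain ⟨j₂, hj₂⟩ := exists_blk
        (Sum.elim (fun _ : Fin (2 ^ l) => (1 : F)) (fun _ : Fin (2 ^ l) => (1 : F)))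
        (fun _ : Fin 1 => (1 : F))
      have hposl : 0 < 2 ^ l := by positivity
      have hsum : 2 ^ (l + 1) = 2 ^ l + 2 ^ l := by rw [pow_succ]; omega
      rcases iso_III (F := F) h2 (2 ^ l) 1 with ⟨⟨e⟩⟩ | h0
      swap
      · omega
      obtain ⟨e₀⟩ := iso_II (F := F) h2 (2 ^ l) (2 ^ l) (by omega)
      rw [hsum]
      refine Target.of_equiv e ?_
      refine target_wreath_ext j hj.injective σ s1 s2 s3 hk j₂ hj₂.injective
        (card_unary h2 _ (fun _ => one_ne_zero) (by simp)) ?_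
        ((nice_GI h2 _ (by omega)).2 (four_le_pow (by omega))) s4
      rw [Nat.card_congr e.toEquiv, Nat.card_congr e₀.toEquiv, card_GI h2 _ (by omega),
        card_GI h2 _ (by omega), ← hsum]
      have h1 : padicValNat 2 (cI (Fintype.card F) 1) = 1 := by
        have : cI (Fintype.card F) 1 = 2 := by simp [cI, oddO]
        rw [this]; simp
      rw [num_prod _ (odd_card_F h2) Fintype.one_lt_card (l + 1) 1 (by omega) le_rfl
        (by omega), h1]
    · obtain ⟨j, hj, hk⟩ := prod_data (F := F) h2 i b hi hb hb'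
      obtain ⟨e⟩ := iso_II (F := F) h2 (2 ^ i) b (by omega)
      refine Target.of_equiv e ?_
      refine target_prod j hj.injective hk ?_ ((nice_GI h2 _ (by omega)).2 (four_le_pow hi2))
        (nice_GI h2 b hb).1 ?_ ?_
      · apply index_comm h2
        · rintro (i | i) <;> simp
        · simp; omega
      · exact blk_onto_left h2 (fun _ => one_ne_zero) (fun _ => one_ne_zero)
          (by simpa using two_le_pow hi) hj
      · exact blk_onto_right h2 (fun _ => one_ne_zero) (fun _ => one_ne_zero)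
          (by simpa using hb2) hj

theorem target_GJ (h2 : (2 : F) ≠ 0) (n : ℕ) (hn : 4 ≤ n) (he : Even n) {δ : F}
    (hδ : ¬ IsSquare δ) : Target (GJ (n + 2) δ) := by
  have hδ0 : δ ≠ 0 := by
    rintro rfl
    exact hδ (IsSquare.zero)
  have hw : ∀ i : Fin 2, (if i.val = 0 then δ else (1 : F)) ≠ 0 := by
    intro i; split_ifs <;> simp [hδ0]
  obtain ⟨j, hj⟩ := exists_blk (fun _ : Fin n => (1 : F))
    (fun i : Fin 2 => if i.val = 0 then δ else (1 : F))
  obtain ⟨e⟩ := iso_IJ (F := F) h2 n hδ0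
  refine Target.of_equiv e ?_
  refine target_prod j hj.injective ?_ ?_ ((nice_GI h2 _ (by omega)).2 hn)
    (niceT_binary h2 _ hw (by simp)).nice ?_ ?_
  · rw [Nat.card_congr e.toEquiv, card_GJ h2 _ (by omega) (by simpa [Nat.even_add] using he) hδ,
      card_GI h2 _ (by omega)]
    have := card_GJ h2 2 le_rfl even_two hδ
    rw [this]
    exact num_bad _ (odd_card_F h2) Fintype.one_lt_card n (by omega) he
  · apply index_comm h2
    · rintro (i | i)
      · simp
      · exact hw i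
    · simp
  · exact blk_onto_left h2 (fun _ => one_ne_zero) hw (by simp; omega) hj
  · exact blk_onto_right h2 (fun _ => one_ne_zero) hw (by simp) hj

theorem two_ne_zero_of_odd (hF : Odd (Fintype.card F)) : (2 : F) ≠ 0 := by
  intro h
  have hc : ringChar F = 2 := by
    have : ringChar F ∣ 2 := by
      have := (ringChar.spec F 2).mp (by exact_mod_cast h)
      exact this
    rcases (Nat.dvd_prime Nat.prime_two).mp this with h1 | h1
    · exact absurd h1 (CharP.ringChar_ne_one)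
    · exact h1
  have := FiniteField.even_card_of_char_two hc
  have h3 := Nat.odd_iff.mp hF
  omega

theorem exists_nonsq (h2 : (2 : F) ≠ 0) : ∃ δ : F, ¬ IsSquare δ :=
  FiniteField.exists_nonsquare (ringChar_ne_two h2)

theorem final_odd (hF : Odd (Fintype.card F)) (m : ℕ) (hm : 3 ≤ m) :
    Target ↥(Cfsg.isometryGroup F (Cfsg.quadFormOdd m F)) := by
  have h2 := two_ne_zero_of_odd hF
  obtain ⟨e⟩ := iso_odd (F := F) h2 m
  exact Target.of_equiv e.symm (target_GI h2 _ (by omega))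

theorem final_plus (hF : Odd (Fintype.card F)) (m : ℕ) (hm : 1 ≤ m) (hm' : Even m ∨ 4 ≤ m) :
    Target ↥(Cfsg.isometryGroup F (Cfsg.quadFormPlus m F)) := by
  have h2 := two_ne_zero_of_odd hF
  by_cases h : IsSquare ((-1 : F) ^ m)
  · obtain ⟨e⟩ := iso_plus_good (F := F) h2 m hm h
    refine Target.of_equiv e.symm (target_GI h2 _ ?_)
    rcases hm' with ⟨l, hl⟩ | h4
    · omega
    · omega
  · obtain ⟨δ, hδ⟩ := exists_nonsq (F := F) h2
    obtain ⟨e⟩ := iso_plus_bad (F := F) h2 m hm h hδ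
    have hodd : ¬ Even m := by
      intro hev
      have h1 : (-1 : F) ^ m = 1 := hev.neg_one_pow
      exact h (by rw [h1]; exact IsSquare.one)
    have h4 : 4 ≤ m := by tauto
    obtain ⟨l, rfl⟩ : ∃ l, m = l + 1 := ⟨m - 1, by omega⟩
    have := target_GJ (F := F) h2 (2 * l) (by omega) (even_two_mul l) hδ
    exact Target.of_equiv e.symm this

theorem final_minus (hF : Odd (Fintype.card F)) (m : ℕ) (hm : 4 ≤ m) (a b : F)
    (hab : ∀ z₁ z₂ : F, z₁ ^ 2 + a * z₁ * z₂ + b * z₂ ^ 2 = 0 → z₁ = 0 ∧ z₂ = 0) :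
    Target ↥(Cfsg.isometryGroup F (Cfsg.quadFormMinus (m - 1) F a b)) := by
  have h2 := two_ne_zero_of_odd hF
  by_cases h : IsSquare ((-1 : F) ^ m)
  · obtain ⟨δ, hδ⟩ := exists_nonsq (F := F) h2
    obtain ⟨e⟩ := iso_minus_bad (F := F) h2 m (by omega) a b hab h hδ
    obtain ⟨l, rfl⟩ : ∃ l, m = l + 1 := ⟨m - 1, by omega⟩
    have := target_GJ (F := F) h2 (2 * l) (by omega) (even_two_mul l) hδ
    exact Target.of_equiv e.symm this
  · obtain ⟨e⟩ := iso_minus_good (F := F) h2 m (by omega) a b hab h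
    exact Target.of_equiv e.symm (target_GI h2 _ (by omega))

end Cfsg.Agent.Lib.Helper90.Syl2
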