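import Cfsg.Agent.Lib.Helper90.Syl2.G2

set_option autoImplicit false
set_option linter.unusedSectionVars false

namespace Cfsg.Agent.Lib.Helper90.Syl2

open Cfsg.Agent.Lib.Helper18 QuadraticMap

variable {F : Type*} [Field F]
variable {ι κ : Type} [Fintype ι] [DecidableEq ι] [Fintype κ] [DecidableEq κ]

/-- the sign of a reflection depends only on the value of the form. -/
theorem gs_sgn_refl_eq [Fintype F] (h2 : (2 : F) ≠ 0) (Q : QuadraticForm F (ι → F))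
    (Q' : QuadraticForm F (κ → F)) {c : F} (hc : c ≠ 0) {v : ι → F} {w : κ → F}
    (hv : Q v ≠ 0) (hvw : Q' w = Q v) :
    sgn ⇑Q' c (refl Q' w) = sgn ⇑Q c (refl Q v) := by
  have hw : Q' w ≠ 0 := by rw [hvw]; exact hv
  by_cases h : ∃ t : F, c = Q v * t ^ 2
  · obtain ⟨t, ht⟩ := h
    rw [sgn_refl_of_sq Q h2 hc hv ht, sgn_refl_of_sq Q' h2 hc hw (by rw [hvw]; exact ht)]
  · have h' : ∀ t : F, c ≠ Q v * t ^ 2 := fun t ht => h ⟨t, ht⟩
    rw [sgn_refl_of_not_sq Q h2 hc hv h', sgn_refl_of_not_sq Q' h2 hc hw (by rw [hvw]; exact h')]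

theorem blk_sgn_left [Fintype F] (h2 : (2 : F) ≠ 0) {a : ι → F} {b : κ → F} (ha : ∀ i, a i ≠ 0)
    {j : OO a × OO b →* OO (Sum.elim a b)} (hj : IsBlk j) {c : F} (hc : c ≠ 0) (x : OO a) :
    sgn ⇑(dg (Sum.elim a b)) c (j (x, 1)) = sgn ⇑(dg a) c x := by
  have key : ((sgn ⇑(dg (Sum.elim a b)) c).comp (j.comp (MonoidHom.inl (OO a) (OO b)))) =
      sgn ⇑(dg a) c := by
    apply MonoidHom.eq_of_eqOn_dense (closure_reflSet_eq_top (dg a) h2 (dg_nondeg h2 a ha))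
    rintro _ ⟨v, hv, rfl⟩
    show sgn ⇑(dg (Sum.elim a b)) c (j (refl (dg a) v, 1)) = sgn ⇑(dg a) c (refl (dg a) v)
    rw [blk_refl_left hj]
    apply gs_sgn_refl_eq h2 _ _ hc hv
    rw [dg_sum]
    have h1 : (Sum.elim v (0 : κ → F)) ∘ Sum.inl = v := rfl
    have h2' : (Sum.elim v (0 : κ → F)) ∘ Sum.inr = 0 := rfl
    rw [h1, h2', map_zero, add_zero]
  exact DFunLike.congr_fun key x

theorem blk_sgn_right [Fintype F] (h2 : (2 : F) ≠ 0) {a : ι → F} {b : κ → F} (hb : ∀ i, b i ≠ 0)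
    {j : OO a × OO b →* OO (Sum.elim a b)} (hj : IsBlk j) {c : F} (hc : c ≠ 0) (y : OO b) :
    sgn ⇑(dg (Sum.elim a b)) c (j (1, y)) = sgn ⇑(dg b) c y := by
  have key : ((sgn ⇑(dg (Sum.elim a b)) c).comp (j.comp (MonoidHom.inr (OO a) (OO b)))) =
      sgn ⇑(dg b) c := by
    apply MonoidHom.eq_of_eqOn_dense (closure_reflSet_eq_top (dg b) h2 (dg_nondeg h2 b hb))
    rintro _ ⟨v, hv, rfl⟩
    show sgn ⇑(dg (Sum.elim a b)) c (j (1, refl (dg b) v)) = sgn ⇑(dg b) c (refl (dg b) v)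
    rw [blk_refl_right hj]
    apply gs_sgn_refl_eq h2 _ _ hc hv
    rw [dg_sum]
    have h1 : (Sum.elim (0 : ι → F) v) ∘ Sum.inl = 0 := rfl
    have h2' : (Sum.elim (0 : ι → F) v) ∘ Sum.inr = v := rfl
    rw [h1, h2', map_zero, zero_add]
  exact DFunLike.congr_fun key y

end Cfsg.Agent.Lib.Helper90.Syl2
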