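import Cfsg.Agent.Lib.Helper90.Syl2.N1

/-!
Ladder SYL2O, rung N4.
-/

set_option autoImplicit false

namespace Cfsg.Agent.Lib.Helper90.Syl2

theorem num_bad (q : ℕ) (hq : Odd q) (hq1 : 1 < q) (n : ℕ) (hn : 2 ≤ n) (he : Even n) :
    padicValNat 2 (cJ q (n + 2)) = padicValNat 2 (cI q n) + padicValNat 2 (cJ q 2) := by
  obtain ⟨m, rfl⟩ : ∃ m, n = 2 * m := by
    obtain ⟨m, hm⟩ := he
    exact ⟨m, by omega⟩
  have e1 : 2 * m + 2 = 2 * (m + 1) := by ring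
  have e2 : (2 : ℕ) = 2 * 1 := rfl
  have h2 : padicValNat 2 (cJ q 2) = 2 := by
    have := v2_cJ q hq hq1 1 le_rfl
    simpa using this
  rw [e1, v2_cJ q hq hq1 (m + 1) (by omega), v2_cI_even q hq hq1 m (by omega), h2]
  have e3 : m + 1 - 1 = m := rfl
  rw [e3]
  ring

end Cfsg.Agent.Lib.Helper90.Syl2
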