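import Cfsg.Agent.Lib.Helper90.Syl2.W1
import Cfsg.Agent.Lib.Helper90.Syl2.A5

/-!
Ladder SYL2O (helper90), rung W2 (helper76): `niceC_wreath`.
-/

set_option autoImplicit false

namespace Cfsg.Agent.Lib.Helper90.Syl2

open scoped commutatorElement

/-- if the image of `f` meets every coset of `G'` (of index 4), so does the image of a subgroup of
odd index. -/
theorem w_onto {A G : Type*} [Group A] [Group G] [Finite A] (f : A →* G)
    (h4 : (commutator G).index = 4) (X : Subgroup A) (hXo : Odd X.index)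
    (hoA : ∀ g : G, ∃ a : A, g * f a ∈ commutator G) :
    ∀ g : G, ∃ x ∈ X, g * f x ∈ commutator G := by
  intro g
  obtain ⟨a, ha⟩ := hoA g
  have hidx : ∃ e : ℕ, ((commutator G).comap f).index = 2 ^ e := by
    have hd : ((commutator G).comap f).index ∣ 2 ^ 2 := by
      rw [Subgroup.index_comap]
      have := Subgroup.relIndex_dvd_index_of_normal (commutator G) f.range
      rw [h4] at this
      simpa using this
    obtain ⟨e, -, he⟩ := (Nat.dvd_prime_pow Nat.prime_two).mp hd
    exact ⟨e, he⟩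
  obtain ⟨x, hx, hxa⟩ := ontoP_of_odd ((commutator G).comap f) X hidx hXo a⁻¹
  refine ⟨x, hx, ?_⟩
  have h1 : f (a⁻¹ * x) ∈ commutator G := hxa
  have h2 : g * f x = (g * f a) * f (a⁻¹ * x) := by
    rw [map_mul, map_inv]; group
  rw [h2]
  exact mul_mem ha h1

/-- W2. -/
theorem niceC_wreath {A G : Type*} [Group A] [Group G] [Finite G] (j : A × A →* G)
    (hj : Function.Injective j) (σ : G) (hσ : σ * σ = 1)
    (hσj : ∀ x y, σ * j (x, y) * σ⁻¹ = j (y, x)) (hσn : σ ∉ j.range)
    (hk : padicValNat 2 (Nat.card G) = 2 * padicValNat 2 (Nat.card A) + 1)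
    (h4 : (commutator G).index = 4)
    (hA : Nice A) (hoA : ∀ g : G, ∃ a : A, g * j (a, 1) ∈ commutator G) : NiceC G := by
  obtain ⟨X, hX2, hXo, hXs⟩ := hA
  obtain ⟨h1, h2⟩ := pack_wreath j hj σ hσ hσj hσn hk X hX2 hXo
  have hfin : Finite A := by
    refine Finite.of_injective (fun a : A => j (a, 1)) ?_
    intro a b hab
    have := hj hab
    simpa using this
  refine ⟨_, h1, h2, ?_, ?_⟩
  · have h := sqIn_wreath_inf (⊤ : Subgroup G) (X.map (j.comp (MonoidHom.inl A A))) le_top σ 1 hσ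
      (one_mul 1) (Commute.one_right σ) (fun x _ => Commute.one_left x) (w_comm j σ hσj X)
      (Subgroup.mem_top σ) (hXs.map _)
      (fun x _ x' _ => ⟨1, one_mem _, 1, one_mem _, Commute.one_left 1, Subgroup.mem_top _,
        Subgroup.mem_top _⟩)
    rwa [Subgroup.zpowers_one_eq_bot, sup_bot_eq, inf_top_eq] at h
  · have hon := w_onto (j.comp (MonoidHom.inl A A)) h4 X hXo hoA
    intro p _ p' _
    obtain ⟨x, hx, hxp⟩ := hon p
    obtain ⟨x', hx', hxp'⟩ := hon p'
    have hm : (j.comp (MonoidHom.inl A A)) x ∈ X.map (j.comp (MonoidHom.inl A A)) := ⟨x, hx, rfl⟩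
    have hm' : (j.comp (MonoidHom.inl A A)) x' ∈ X.map (j.comp (MonoidHom.inl A A)) :=
      ⟨x', hx', rfl⟩
    refine ⟨(j.comp (MonoidHom.inl A A)) x, ?_, σ * (j.comp (MonoidHom.inl A A)) x' * σ⁻¹, ?_,
      w_comm j σ hσj X _ hm _ hm', hxp, ?_⟩
    · exact (le_sup_left.trans le_sup_left : X.map (j.comp (MonoidHom.inl A A)) ≤ _) hm
    · refine (le_sup_right.trans le_sup_left :
        (X.map (j.comp (MonoidHom.inl A A))).map (MulAut.conj σ).toMonoidHom ≤ _) ?_
      exact ⟨_, hm', rfl⟩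
    · set c := (j.comp (MonoidHom.inl A A)) x' with hc
      have h3 : p' * (σ * c * σ⁻¹) = (p' * c) * ⁅c⁻¹, σ⁆ := by
        rw [commutatorElement_def]; group
      rw [h3]
      exact mul_mem hxp' (Subgroup.commutator_mem_commutator (Subgroup.mem_top _)
        (Subgroup.mem_top _))

end Cfsg.Agent.Lib.Helper90.Syl2
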